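import Mathlib

set_option autoImplicit false

namespace Cfsg.Agent.H42

open Module

universe u

/-- Hyperbolic pairs spanning a complement of the radical, for an alternating form. -/
theorem alt_pairs_aux {F : Type*} [Field F] (d : ℕ) :
    ∀ (V : Type u) [AddCommGroup V] [Module F V] [FiniteDimensional F V]
      (B : V →ₗ[F] V →ₗ[F] F), (∀ x, B x x = 0) → Module.finrank F V = d →
      ∃ (m : ℕ) (e f : Fin m → V),
        (∀ i j, B (e i) (f j) = if i = j then 1 else 0) ∧
        (∀ i j, B (e i) (e j) = 0) ∧ (∀ i j, B (f i) (f j) = 0) ∧
        (∀ y, (∀ j, B y (e j) = 0) → (∀ j, B y (f j) = 0) → B y = 0) := by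
  induction d using Nat.strong_induction_on with
  | _ d ih =>
    intro V _ _ _ B halt hd
    by_cases h0 : B = 0
    · refine ⟨0, Fin.elim0, Fin.elim0, fun i => i.elim0, fun i => i.elim0, fun i => i.elim0, ?_⟩
      intro y _ _
      rw [h0]; rfl
    · obtain ⟨u, v, huv⟩ : ∃ u v, B u v ≠ 0 := by
        by_contra hcon
        push Not at hcon
        apply h0
        ext x y
        simp [hcon]
      have hskew : ∀ x y, B x y = - B y x := by
        intro x y
        have h1 := halt (x + y)
        simp only [map_add, LinearMap.add_apply, halt, zero_add, add_zero] at h1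
        linear_combination h1
      set e0 := u with he0
      set f0 := (B u v)⁻¹ • v with hf0
      have hef : B e0 f0 = 1 := by
        rw [hf0, map_smul, smul_eq_mul, inv_mul_cancel₀ huv]
      have hfe : B f0 e0 = -1 := by rw [hskew, hef]
      let T : V →ₗ[F] (F × F) := (B e0).prod (B f0)
      let W : Submodule F V := LinearMap.ker T
      have hWmem : ∀ x, x ∈ W ↔ B e0 x = 0 ∧ B f0 x = 0 := by
        intro x
        show T x = 0 ↔ _
        show ((B e0) x, (B f0) x) = 0 ↔ _
        rw [Prod.mk_eq_zero]
      have hWlt : Module.finrank F W < Module.finrank F V := by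
        apply Submodule.finrank_lt
        intro htop
        have : f0 ∈ W := by rw [htop]; trivial
        rw [hWmem] at this
        rw [hef] at this
        exact one_ne_zero this.1
      let BW : W →ₗ[F] W →ₗ[F] F := B.domRestrict₁₂ W W
      have hBW : ∀ x y : W, BW x y = B x y := fun x y => rfl
      obtain ⟨m', e', f', h1, h2, h3, h4⟩ :=
        ih (Module.finrank F W) (by omega) W BW (fun x => halt x) rfl
      refine ⟨m' + 1, Fin.cons e0 (fun i => (e' i : V)), Fin.cons f0 (fun i => (f' i : V)),
        ?_, ?_, ?_, ?_⟩
      · intro i j
        refine Fin.cases ?_ (fun i => ?_) i <;> refine Fin.cases ?_ (fun j => ?_) j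
        · simp [hef]
        · simp only [Fin.cons_zero, Fin.cons_succ]
          rw [((hWmem _).mp (f' j).2).1]
          simp [Fin.ext_iff]
        · simp only [Fin.cons_zero, Fin.cons_succ]
          rw [hskew, ((hWmem _).mp (e' i).2).2]
          simp [Fin.ext_iff]
        · simp only [Fin.cons_succ]
          have := h1 i j
          rw [hBW] at this
          rw [this]
          simp [Fin.ext_iff]
      · intro i j
        refine Fin.cases ?_ (fun i => ?_) i <;> refine Fin.cases ?_ (fun j => ?_) j
        · simp [halt]
        · simp only [Fin.cons_zero, Fin.cons_succ]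
          exact ((hWmem _).mp (e' j).2).1
        · simp only [Fin.cons_zero, Fin.cons_succ]
          rw [hskew, ((hWmem _).mp (e' i).2).1, neg_zero]
        · simp only [Fin.cons_succ]
          have := h2 i j
          rw [hBW] at this
          exact this
      · intro i j
        refine Fin.cases ?_ (fun i => ?_) i <;> refine Fin.cases ?_ (fun j => ?_) j
        · simp [halt]
        · simp only [Fin.cons_zero, Fin.cons_succ]
          exact ((hWmem _).mp (f' j).2).2
        · simp only [Fin.cons_zero, Fin.cons_succ]
          rw [hskew, ((hWmem _).mp (f' i).2).2, neg_zero]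
        · simp only [Fin.cons_succ]
          have := h3 i j
          rw [hBW] at this
          exact this
      · intro y hye hyf
        have hy0e : B y e0 = 0 := by simpa using hye 0
        have hy0f : B y f0 = 0 := by simpa using hyf 0
        have hyW : y ∈ W := by
          rw [hWmem]
          exact ⟨by rw [hskew, hy0e, neg_zero], by rw [hskew, hy0f, neg_zero]⟩
        have h5 : BW ⟨y, hyW⟩ = 0 := by
          apply h4
          · intro j
            rw [hBW]
            simpa using hye j.succ
          · intro j
            rw [hBW]
            simpa using hyf j.succ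
        refine LinearMap.ext fun x => ?_
        set w := x - B x f0 • e0 + B x e0 • f0 with hw
        have hwW : w ∈ W := by
          rw [hWmem]
          constructor
          · simp only [hw, map_add, map_sub, map_smul, smul_eq_mul, halt, mul_zero, sub_zero, hef,
              mul_one]
            rw [hskew e0 x]; ring
          · simp only [hw, map_add, map_sub, map_smul, smul_eq_mul, halt, mul_zero, add_zero, hfe]
            rw [hskew f0 x]; ring
        have h6 : B y w = 0 := by
          have : BW ⟨y, hyW⟩ ⟨w, hwW⟩ = 0 := by rw [h5]; rfl
          rw [hBW] at this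
          exact this
        have hx : x = w + B x f0 • e0 - B x e0 • f0 := by rw [hw]; abel
        rw [hx]
        simp only [map_add, map_sub, map_smul, smul_eq_mul, h6, hy0e, hy0f, mul_zero, add_zero,
          sub_zero, LinearMap.zero_apply]

end Cfsg.Agent.H42
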