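import Mathlib

set_option autoImplicit false

namespace Cfsg.Agent.H42

open Matrix

universe u

/-- An alternating bilinear form on a finite-dimensional space has even rank
(`finrank V - finrank (ker ω)`). -/
theorem alt_even_aux {F : Type*} [Field F] (d : ℕ) :
    ∀ (V : Type u) [AddCommGroup V] [Module F V] [FiniteDimensional F V]
      (ω : V →ₗ[F] V →ₗ[F] F), (∀ x, ω x x = 0) → Module.finrank F V = d →
      Even (Module.finrank F V - Module.finrank F (LinearMap.ker ω)) := by
  induction d using Nat.strong_induction_on with
  | _ d ih =>
    intro V _ _ _ ω halt hd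
    by_cases h0 : ω = 0
    · rw [h0, LinearMap.ker_zero, finrank_top, Nat.sub_self]
      exact ⟨0, rfl⟩
    · obtain ⟨u, v, huv⟩ : ∃ u v, ω u v ≠ 0 := by
        by_contra hcon
        push Not at hcon
        apply h0
        ext x y
        simp [hcon]
      have hskew : ∀ x y, ω x y = - ω y x := by
        intro x y
        have h1 := halt (x + y)
        simp only [map_add, LinearMap.add_apply, halt, zero_add, add_zero] at h1
        linear_combination h1
      set c := ω u v with hc
      have hvu : ω v u = -c := by rw [hskew v u]
      have huv' : ω u v = c := rfl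
      let T : V →ₗ[F] (F × F) := (ω u).prod (ω v)
      have hT : ∀ x, T x = (ω u x, ω v x) := fun x => rfl
      have hTsurj : Function.Surjective T := by
        rintro ⟨a, b⟩
        refine ⟨(a / c) • v - (b / c) • u, ?_⟩
        rw [hT]
        simp only [map_sub, map_smul, smul_eq_mul, halt, mul_zero, sub_zero, zero_sub, hvu, huv']
        ext
        · simp only; field_simp
        · simp only; field_simp
      let W : Submodule F V := LinearMap.ker T
      have hWmem : ∀ x, x ∈ W ↔ ω u x = 0 ∧ ω v x = 0 := by
        intro x
        show T x = 0 ↔ _
        rw [hT, Prod.mk_eq_zero]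
      let ωW : W →ₗ[F] W →ₗ[F] F := ω.domRestrict₁₂ W W
      have hωW : ∀ x y : W, ωW x y = ω x y := fun x y => rfl
      have hdimW : Module.finrank F W + 2 = Module.finrank F V := by
        have h1 := LinearMap.finrank_range_add_finrank_ker T
        rw [LinearMap.range_eq_top.mpr hTsurj, finrank_top, Module.finrank_prod,
          Module.finrank_self] at h1
        show Module.finrank F (LinearMap.ker T) + 2 = _
        omega
      have hkermap : (LinearMap.ker ωW).map W.subtype = LinearMap.ker ω := by
        ext x
        constructor
        · rintro ⟨w, hw, rfl⟩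
          rw [LinearMap.mem_ker]
          refine LinearMap.ext fun y => ?_
          have hwW := (hWmem w).mp w.2
          -- decompose y
          set a := ω u y
          set b := ω v y
          set y' := y - (a / c) • v + (b / c) • u with hy'
          have hy'W : y' ∈ W := by
            rw [hWmem]
            constructor
            · simp only [hy', map_add, map_sub, map_smul, smul_eq_mul, halt, mul_zero, add_zero, huv']
              field_simp
              ring
            · simp only [hy', map_add, map_sub, map_smul, smul_eq_mul, halt, mul_zero, sub_zero, hvu]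
              field_simp
              ring
          have hy : y = y' + (a / c) • v - (b / c) • u := by rw [hy']; abel
          have h1 : ω w y' = 0 := by
            have h2 : ωW w ⟨y', hy'W⟩ = 0 := by
              have hw' : ωW w = 0 := LinearMap.mem_ker.mp hw
              rw [hw']; rfl
            rw [hωW] at h2
            exact h2
          have h3 : ω w v = 0 := by rw [hskew]; simp [hwW.2]
          have h4 : ω w u = 0 := by rw [hskew]; simp [hwW.1]
          show ω (W.subtype w) y = (0 : V →ₗ[F] F) y
          rw [hy]
          simp only [Submodule.subtype_apply, map_add, map_sub, map_smul, smul_eq_mul, h1, h3, h4,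
            mul_zero, add_zero, sub_zero, LinearMap.zero_apply]
        · intro hx
          rw [LinearMap.mem_ker] at hx
          have hxW : x ∈ W := by
            rw [hWmem]
            constructor
            · rw [hskew, hx]; simp
            · rw [hskew, hx]; simp
          refine ⟨⟨x, hxW⟩, LinearMap.mem_ker.mpr ?_, rfl⟩
          refine LinearMap.ext fun y => ?_
          rw [hωW]
          show ω x y = 0
          rw [hx]; rfl
      have hker : Module.finrank F (LinearMap.ker ωW) = Module.finrank F (LinearMap.ker ω) := by
        rw [← hkermap, Submodule.finrank_map_subtype_eq]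
      have hIH := ih (Module.finrank F W) (by omega) W ωW (fun x => halt x) rfl
      rw [hker] at hIH
      have hle : Module.finrank F (LinearMap.ker ω) ≤ Module.finrank F W := by
        rw [← hker]; exact Submodule.finrank_le _
      obtain ⟨k, hk⟩ := hIH
      exact ⟨k + 1, by omega⟩

/-- A matrix `C` with `x ⬝ C x = 0` for all `x` (an alternating matrix) has even rank. -/
theorem even_rank_of_alt {F : Type*} [Field F] {ι : Type*} [Fintype ι] [DecidableEq ι]
    (C : Matrix ι ι F) (h : ∀ x : ι → F, x ⬝ᵥ C *ᵥ x = 0) : Even C.rank := by
  let ω : (ι → F) →ₗ[F] (ι → F) →ₗ[F] F :=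
    LinearMap.mk₂ F (fun x y => x ⬝ᵥ C *ᵥ y)
      (fun x x' y => by simp [add_dotProduct])
      (fun c x y => by simp [smul_dotProduct])
      (fun x y y' => by simp [Matrix.mulVec_add, dotProduct_add])
      (fun c x y => by simp [Matrix.mulVec_smul, dotProduct_smul])
  have hω : ∀ x y, ω x y = x ⬝ᵥ C *ᵥ y := fun x y => rfl
  have h1 := alt_even_aux (F := F) (Module.finrank F (ι → F)) (ι → F) ω (fun x => by rw [hω]; exact h x) rfl
  have hker : LinearMap.ker ω = LinearMap.ker (Cᵀ.mulVecLin) := by
    ext x
    rw [LinearMap.mem_ker, LinearMap.mem_ker, Matrix.mulVecLin_apply]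
    constructor
    · intro hx
      rw [← dotProduct_eq_zero_iff]
      intro w
      have h2 : ω x w = 0 := by rw [hx]; rfl
      rw [hω, Matrix.dotProduct_mulVec, ← Matrix.mulVec_transpose] at h2
      exact h2
    · intro hx
      refine LinearMap.ext fun w => ?_
      rw [hω, Matrix.dotProduct_mulVec, ← Matrix.mulVec_transpose, hx]
      simp
  rw [hker] at h1
  have h3 := LinearMap.finrank_range_add_finrank_ker (Cᵀ.mulVecLin)
  have h4 : Cᵀ.rank = Module.finrank F (LinearMap.range Cᵀ.mulVecLin) := rfl
  rw [← Matrix.rank_transpose, h4]
  have h5 : Module.finrank F (ι → F) - Module.finrank F (LinearMap.ker Cᵀ.mulVecLin)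
      = Module.finrank F (LinearMap.range Cᵀ.mulVecLin) := by omega
  rw [← h5]
  exact h1

end Cfsg.Agent.H42
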