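import Mathlib

set_option autoImplicit false

namespace Cfsg.Agent.H42

open Matrix

/-- If `N = A * B` where `A` has a left inverse and `B` has a right inverse, both through an index
type `k`, then `N` has rank `card k`. -/
theorem rank_eq_card_of_factor {F : Type*} [Field F] {m k : Type*} [Fintype m] [Fintype k]
    [DecidableEq m] [DecidableEq k]
    (N : Matrix m m F) (A : Matrix m k F) (B : Matrix k m F) (A' : Matrix k m F) (B' : Matrix m k F)
    (hN : N = A * B) (hA : A' * A = 1) (hB : B * B' = 1) : N.rank = Fintype.card k := by
  apply le_antisymm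
  · rw [hN]
    calc (A * B).rank ≤ A.rank := Matrix.rank_mul_le_left A B
      _ ≤ Fintype.card k := Matrix.rank_le_card_width A
  · have h1 : A' * N * B' = 1 := by
      rw [hN, ← Matrix.mul_assoc, hA, Matrix.one_mul, hB]
    calc Fintype.card k = (1 : Matrix k k F).rank := (Matrix.rank_one).symm
      _ = (A' * N * B').rank := by rw [h1]
      _ ≤ (A' * N).rank := Matrix.rank_mul_le_left _ _
      _ ≤ N.rank := Matrix.rank_mul_le_right _ _

/-- In characteristic two, a matrix squaring to one has determinant one. -/
theorem det_eq_one_of_sq_eq_one {F : Type*} [Field F] [CharP F 2] {m : Type*} [Fintype m]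
    [DecidableEq m] (M : Matrix m m F) (h : M * M = 1) : M.det = 1 := by
  have h2 : M.det * M.det = 1 := by rw [← Matrix.det_mul, h, Matrix.det_one]
  have h3 : (M.det + 1) * (M.det + 1) = 0 := by
    have : (M.det + 1) * (M.det + 1) = M.det * M.det + (M.det + M.det) + 1 := by ring
    rw [this, h2, CharTwo.add_self_eq_zero, add_zero, CharTwo.add_self_eq_zero]
  have h4 : M.det + 1 = 0 := by
    rcases mul_eq_zero.mp h3 with h | h <;> exact h
  have h5 : M.det = -1 := eq_neg_of_add_eq_zero_left h4
  rw [h5, CharTwo.neg_eq]

/-- In characteristic two, `M + M = 0` for matrices. -/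
theorem matrix_add_self {F : Type*} [Field F] [CharP F 2] {m k : Type*}
    (M : Matrix m k F) : M + M = 0 := by
  ext i j
  simp [CharTwo.add_self_eq_zero]

end Cfsg.Agent.H42
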