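import Mathlib
import Cfsg.Agent.H17.WittAlt
import Cfsg.Agent.H42.AltBasis
import Cfsg.Agent.H42.Char2Onb

set_option autoImplicit false

namespace Cfsg.Agent.H42

open Module

universe u

section

variable {F : Type*} [Field F] {V : Type u} [AddCommGroup V] [Module F V]

/-- A presentation of a self-adjoint operator `N` relative to a form `B`: vectors `t s` whose
`N`-Gram matrix is the permutation matrix of `σ`, and which give `N` by an explicit formula. -/
def Pres {ι : Type*} [Fintype ι] [DecidableEq ι] (B : V →ₗ[F] V →ₗ[F] F) (N : V →ₗ[F] V)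
    (σ : ι → ι) (t : ι → V) : Prop :=
  (∀ s s', B (N (t s)) (t s') = if σ s = s' then 1 else 0) ∧
    ∀ x, N x = ∑ s, B (N (t (σ s))) x • N (t s)

/-- A complement of the kernel of a self-adjoint operator. -/
theorem compl_setup (B : V →ₗ[F] V →ₗ[F] F) (N : V →ₗ[F] V)
    (hN : ∀ x y, B (N x) y = B x (N y)) :
    ∃ C : Submodule F V, (∀ x : V, ∃ c : C, N x = N c ∧ ∀ y, B (N y) x = B (N y) c) ∧
      (∀ c : C, N c = 0 → c = 0) := by
  obtain ⟨C, hC⟩ := Submodule.exists_isCompl (LinearMap.ker N)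
  refine ⟨C, ?_, ?_⟩
  · intro x
    have hx : x ∈ LinearMap.ker N ⊔ C := by
      rw [hC.sup_eq_top]
      exact Submodule.mem_top
    obtain ⟨k, hk, c, hc, rfl⟩ := Submodule.mem_sup.1 hx
    have hk0 : N k = 0 := LinearMap.mem_ker.1 hk
    refine ⟨⟨c, hc⟩, ?_, ?_⟩
    · rw [map_add, hk0, zero_add]
    · intro y
      rw [map_add, hN y k, hk0, map_zero, zero_add]
  · intro c hc
    have h1 : (c : V) ∈ LinearMap.ker N ⊓ C := ⟨LinearMap.mem_ker.2 hc, c.2⟩
    rw [hC.inf_eq_bot, Submodule.mem_bot] at h1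
    exact Subtype.ext h1

variable [CharP F 2]

/-- Non-alternating case: orthonormal presentation. -/
theorem pres_nonalt [FiniteDimensional F V] (hsq : ∀ a : F, ∃ b : F, b * b = a)
    (B : V →ₗ[F] V →ₗ[F] F) (hsym : ∀ x y, B x y = B y x)
    (hnd : ∀ x, (∀ y, B x y = 0) → x = 0) (N : V →ₗ[F] V)
    (hN : ∀ x y, B (N x) y = B x (N y)) (hna : ∃ x, B (N x) x ≠ 0) :
    ∃ (r : ℕ) (t : Fin r → V), Pres B N (id : Fin r → Fin r) t := by
  obtain ⟨C, hC1, hC2⟩ := compl_setup B N hN
  let β : C →ₗ[F] C →ₗ[F] F := (B ∘ₗ N).domRestrict₁₂ C C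
  have hβ : ∀ c c' : C, β c c' = B (N c) c' := fun c c' => rfl
  have hβsym : ∀ c c' : C, β c c' = β c' c := by
    intro c c'
    rw [hβ, hβ, hN, hsym]
  have hβnd : ∀ c : C, (∀ c' : C, β c c' = 0) → c = 0 := by
    intro c hc
    apply hC2
    apply hnd
    intro x
    obtain ⟨cx, _, h2⟩ := hC1 x
    rw [h2 c, ← hβ]
    exact hc cx
  have hβna : ∃ c : C, β c c ≠ 0 := by
    obtain ⟨x, hx⟩ := hna
    obtain ⟨cx, h1, h2⟩ := hC1 x
    refine ⟨cx, ?_⟩
    rw [hβ, ← h1, ← h2 x]
    exact hx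
  obtain ⟨u, hu1, hu2⟩ := char2_onb_aux hsq (Module.finrank F C) C β hβsym hβnd rfl hβna
  refine ⟨Module.finrank F C, fun i => (u i : V), ?_, ?_⟩
  · intro s s'
    rw [← hβ, hu1]
    rfl
  · intro x
    obtain ⟨cx, h1, h2⟩ := hC1 x
    have h3 := congrArg (fun c : C => N (c : V)) (hu2 cx)
    simp only [AddSubmonoidClass.coe_finsetSum, Submodule.coe_smul, map_sum, map_smul] at h3
    rw [h1, h3]
    apply Finset.sum_congr rfl
    intro i _
    simp only [id]
    rw [hβ, ← h2]

omit [CharP F 2] in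
/-- Alternating case: hyperbolic presentation. -/
theorem pres_alt [FiniteDimensional F V]
    (B : V →ₗ[F] V →ₗ[F] F) (hsym : ∀ x y, B x y = B y x)
    (hnd : ∀ x, (∀ y, B x y = 0) → x = 0) (N : V →ₗ[F] V)
    (hN : ∀ x y, B (N x) y = B x (N y)) (halt : ∀ x, B (N x) x = 0) :
    ∃ (k : ℕ) (t : Fin k ⊕ Fin k → V), Pres B N (Sum.swap : Fin k ⊕ Fin k → Fin k ⊕ Fin k) t := by
  obtain ⟨C, hC1, hC2⟩ := compl_setup B N hN
  let β : C →ₗ[F] C →ₗ[F] F := (B ∘ₗ N).domRestrict₁₂ C C
  have hβ : ∀ c c' : C, β c c' = B (N c) c' := fun c c' => rfl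
  have hβsym : ∀ c c' : C, β c c' = β c' c := by
    intro c c'
    rw [hβ, hβ, hN, hsym]
  have hβnd : ∀ c : C, (∀ c' : C, β c c' = 0) → c = 0 := by
    intro c hc
    apply hC2
    apply hnd
    intro x
    obtain ⟨cx, _, h2⟩ := hC1 x
    rw [h2 c, ← hβ]
    exact hc cx
  obtain ⟨k, e, f, h1, h2, h3, h4⟩ :=
    alt_pairs_aux (F := F) (Module.finrank F C) C β (fun c => halt c) rfl
  have h1' : ∀ i j, β (f i) (e j) = if i = j then 1 else 0 := by
    intro i j
    rw [hβsym, h1]
    simp [eq_comm]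
  have hexp : ∀ c : C, c = ∑ i, β (f i) c • e i + ∑ i, β (e i) c • f i := by
    intro c
    have hz : c - (∑ i, β (f i) c • e i + ∑ i, β (e i) c • f i) = 0 := by
      apply hβnd
      have h5 : β (c - (∑ i, β (f i) c • e i + ∑ i, β (e i) c • f i)) = 0 := by
        apply h4
        · intro j
          simp only [map_sub, map_add, map_sum, map_smul, LinearMap.sub_apply,
            LinearMap.add_apply, LinearMap.sum_apply, LinearMap.smul_apply, smul_eq_mul, h2, h1',
            mul_zero, Finset.sum_const_zero, zero_add, mul_ite, mul_one, Finset.sum_ite_eq',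
            Finset.mem_univ, if_true]
          rw [hβsym c (e j), sub_self]
        · intro j
          simp only [map_sub, map_add, map_sum, map_smul, LinearMap.sub_apply,
            LinearMap.add_apply, LinearMap.sum_apply, LinearMap.smul_apply, smul_eq_mul, h3, h1,
            mul_zero, Finset.sum_const_zero, add_zero, mul_ite, mul_one, Finset.sum_ite_eq',
            Finset.mem_univ, if_true]
          rw [hβsym c (f j), sub_self]
      intro c'
      rw [h5]
      rfl
    exact sub_eq_zero.1 hz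
  refine ⟨k, Sum.elim (fun i => (e i : V)) (fun i => (f i : V)), ?_, ?_⟩
  · rintro (i | i) (j | j)
    · simp only [Sum.elim_inl, Sum.swap_inl]
      rw [← hβ, h2]
      simp
    · simp only [Sum.elim_inl, Sum.elim_inr, Sum.swap_inl, Sum.inr.injEq]
      rw [← hβ, h1]
    · simp only [Sum.elim_inl, Sum.elim_inr, Sum.swap_inr, Sum.inl.injEq]
      rw [← hβ, h1']
    · simp only [Sum.elim_inr, Sum.swap_inr]
      rw [← hβ, h3]
      simp
  · intro x
    obtain ⟨cx, hx1, hx2⟩ := hC1 x
    have h6 := congrArg (fun c : C => N (c : V)) (hexp cx)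
    simp only [Submodule.coe_add, AddSubmonoidClass.coe_finsetSum, Submodule.coe_smul, map_add,
      map_sum, map_smul] at h6
    rw [hx1, h6, Fintype.sum_sum_type]
    simp only [Sum.swap_inl, Sum.swap_inr, Sum.elim_inl, Sum.elim_inr]
    congr 1
    · apply Finset.sum_congr rfl
      intro i _
      rw [hβ, ← hx2]
    · apply Finset.sum_congr rfl
      intro i _
      rw [hβ, ← hx2]

omit [CharP F 2] in
/-- The rank of a presented operator is the size of the index set. -/
theorem pres_finrank {ι : Type*} [Fintype ι] [DecidableEq ι] (B : V →ₗ[F] V →ₗ[F] F)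
    (N : V →ₗ[F] V) (σ : ι → ι) (hσ : Function.Involutive σ) (t : ι → V)
    (hP : Pres B N σ t) : Module.finrank F (LinearMap.range N) = Fintype.card ι := by
  obtain ⟨hP1, hP2⟩ := hP
  have hli : LinearIndependent F (fun s => N (t s)) := by
    rw [Fintype.linearIndependent_iff]
    intro g hg j
    have h1 := congrArg (fun v => B v (t (σ j))) hg
    simp only [map_sum, map_smul, LinearMap.sum_apply, LinearMap.smul_apply, smul_eq_mul, hP1,
      map_zero, LinearMap.zero_apply] at h1
    simp only [hσ.injective.eq_iff, mul_ite, mul_one, mul_zero, Finset.sum_ite_eq',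
      Finset.mem_univ, if_true] at h1
    exact h1
  have hspan : Submodule.span F (Set.range (fun s => N (t s))) = LinearMap.range N := by
    apply le_antisymm
    · rw [Submodule.span_le]
      rintro _ ⟨s, rfl⟩
      exact LinearMap.mem_range_self N (t s)
    · rintro _ ⟨x, rfl⟩
      rw [hP2 x]
      apply Submodule.sum_mem
      intro s _
      apply Submodule.smul_mem
      apply Submodule.subset_span
      exact ⟨s, rfl⟩
  rw [← hspan, finrank_span_eq_card hli]

end

section

variable {F V : Type*} [Field F] [AddCommGroup V] [Module F V] [FiniteDimensional F V]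

/-- Two self-adjoint square-zero operators with presentations of the same shape are conjugate
under an isometry. -/
theorem pres_conj {ι : Type*} [Fintype ι] [DecidableEq ι] (B : LinearMap.BilinForm F V)
    (hB : B.Nondegenerate) (hA : B.IsAlt) (N₁ N₂ : V →ₗ[F] V)
    (hN₁ : ∀ x y, B (N₁ x) y = B x (N₁ y)) (hN₂ : ∀ x y, B (N₂ x) y = B x (N₂ y))
    (hsq₁ : ∀ x, N₁ (N₁ x) = 0) (hsq₂ : ∀ x, N₂ (N₂ x) = 0)
    (σ : ι → ι) (hσ : Function.Involutive σ) (t₁ t₂ : ι → V)
    (hP₁ : Pres B N₁ σ t₁) (hP₂ : Pres B N₂ σ t₂) :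
    ∃ g : V ≃ₗ[F] V, (∀ v w, B (g v) (g w) = B v w) ∧ ∀ y, N₂ (g y) = g (N₁ y) := by
  obtain ⟨hP11, hP12⟩ := hP₁
  obtain ⟨hP21, hP22⟩ := hP₂
  let f : V →ₗ[F] V := ∑ s, (B (t₁ (σ s))).smulRight (N₂ (t₂ s))
  have hf : ∀ x, f x = ∑ s, B (t₁ (σ s)) x • N₂ (t₂ s) := by
    intro x
    simp [f, LinearMap.sum_apply]
  have hfN : ∀ y, f (N₁ y) = ∑ s, B (N₁ (t₁ (σ s))) y • N₂ (t₂ s) := by
    intro y
    rw [hf]
    apply Finset.sum_congr rfl
    intro s _
    rw [hN₁]
  have hfr : ∀ x, f x = N₂ (∑ s, B (t₁ (σ s)) x • t₂ s) := by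
    intro x
    rw [hf, map_sum]
    apply Finset.sum_congr rfl
    intro s _
    rw [map_smul]
  obtain ⟨g, hg, hgX⟩ := Cfsg.Agent.H17.witt_alt B hB hA (LinearMap.range N₁) f
    (by
      rintro _ ⟨y, rfl⟩ _ ⟨y', rfl⟩
      rw [hfr, hfr, hN₂, hsq₂, map_zero, hN₁, hsq₁, map_zero])
    (by
      rintro _ ⟨y, rfl⟩ h0
      rw [hfN] at h0
      have h1 : ∀ j, B (N₁ (t₁ (σ j))) y = 0 := by
        intro j
        have h2 := congrArg (fun v => B v (t₂ (σ j))) h0
        simp only [map_sum, map_smul, LinearMap.sum_apply, LinearMap.smul_apply, smul_eq_mul,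
          hP21, map_zero, LinearMap.zero_apply] at h2
        simp only [hσ.injective.eq_iff, mul_ite, mul_one, mul_zero, Finset.sum_ite_eq',
          Finset.mem_univ, if_true] at h2
        exact h2
      rw [hP12 y]
      apply Finset.sum_eq_zero
      intro s _
      rw [h1 s, zero_smul])
  have hgt : ∀ j, g (N₁ (t₁ j)) = N₂ (t₂ j) := by
    intro j
    rw [hgX _ (LinearMap.mem_range_self N₁ _), hfN]
    simp only [hP11, hσ (_ : ι)]
    rw [Finset.sum_eq_single j]
    · simp
    · intro s _ hs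
      rw [if_neg hs, zero_smul]
    · intro h
      exact absurd (Finset.mem_univ j) h
  refine ⟨g, hg, ?_⟩
  intro y
  rw [hP22 (g y), hP12 y, map_sum]
  apply Finset.sum_congr rfl
  intro s _
  rw [map_smul, ← hgt, ← hgt, hg]

end

end Cfsg.Agent.H42
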