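import Mathlib
import Cfsg.Prelude.Def_LocalEven

set_option autoImplicit false

namespace Cfsg.Agent.H42

/-- Every `p`-subgroup of `G` is commutative. -/
def APS (p : ℕ) (G : Type*) [Group G] : Prop :=
  ∀ Q : Subgroup G, IsPGroup p Q → ∀ x ∈ Q, ∀ y ∈ Q, x * y = y * x

theorem aps_of_injective {p : ℕ} {G G' : Type*} [Group G] [Group G'] (f : G' →* G)
    (hf : Function.Injective f) (h : APS p G) : APS p G' := by
  intro Q hQ x hx y hy
  have h1 : IsPGroup p (Q.map f) := hQ.map f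
  have h2 := h (Q.map f) h1 (f x) (Subgroup.mem_map_of_mem f hx) (f y) (Subgroup.mem_map_of_mem f hy)
  apply hf
  rw [map_mul, map_mul, h2]

theorem aps_of_sylow {p : ℕ} {G : Type*} [Group G] [Finite G] [Fact p.Prime] (P : Sylow p G)
    (hP : ∀ x ∈ P, ∀ y ∈ P, x * y = y * x) : APS p G := by
  intro Q hQ x hx y hy
  obtain ⟨S, hS⟩ := hQ.exists_le_sylow
  let e := Sylow.equiv P S
  have hxS := hS hx
  have hyS := hS hy
  have hcomm : ∀ a b : P, a * b = b * a := fun a b => Subtype.ext (hP a a.2 b b.2)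
  have h3 : (⟨x, hxS⟩ : S) * ⟨y, hyS⟩ = ⟨y, hyS⟩ * ⟨x, hxS⟩ := by
    rw [← e.apply_symm_apply ⟨x, hxS⟩, ← e.apply_symm_apply ⟨y, hyS⟩, ← map_mul, hcomm, map_mul]
  exact congrArg Subtype.val h3

theorem aps_of_surjective {p : ℕ} {G H : Type*} [Group G] [Group H] [Finite G] [Fact p.Prime]
    (f : G →* H) (hf : Function.Surjective f) (h : APS p G) : APS p H := by
  intro Q hQ x hx y hy
  obtain ⟨T, hT⟩ := hQ.exists_le_sylow
  obtain ⟨P, rfl⟩ := Sylow.mapSurjective_surjective hf p T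
  have hx' : x ∈ (P : Subgroup G).map f := hT hx
  have hy' : y ∈ (P : Subgroup G).map f := hT hy
  obtain ⟨s, hs, rfl⟩ := hx'
  obtain ⟨t, ht, rfl⟩ := hy'
  rw [← map_mul, ← map_mul, h (P : Subgroup G) P.isPGroup' s hs t ht]

theorem aps_of_involves {p : ℕ} {G H : Type*} [Group G] [Group H] [Finite G] [Fact p.Prime]
    (h : APS p G) (hinv : Cfsg.Involves H G) : APS p H := by
  obtain ⟨K, R, hN, ⟨e⟩⟩ := hinv
  have h1 : APS p K := aps_of_injective K.subtype K.subtype_injective h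
  have h2 : APS p (K ⧸ R.subgroupOf K) :=
    aps_of_surjective (QuotientGroup.mk' (R.subgroupOf K)) (QuotientGroup.mk'_surjective _) h1
  exact aps_of_surjective e.toMonoidHom e.surjective h2

end Cfsg.Agent.H42
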