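import Mathlib
import Cfsg.Agent.H42.PSub

set_option autoImplicit false

namespace Cfsg.Agent.H42

open Matrix

/-- The upper unitriangular matrix with entry `b`. -/
def upperMat {K : Type*} [Field K] (b : K) : Matrix (Fin 2) (Fin 2) K := !![1, b; 0, 1]

theorem upperMat_add {K : Type*} [Field K] (a b : K) :
    upperMat (a + b) = upperMat a * upperMat b := by
  ext i j
  fin_cases i <;> fin_cases j <;> simp [upperMat, Matrix.mul_apply, Fin.sum_univ_two, add_comm]

theorem upperMat_zero {K : Type*} [Field K] : upperMat (0 : K) = 1 := by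
  ext i j
  fin_cases i <;> fin_cases j <;> simp [upperMat]

theorem upperMat_det {K : Type*} [Field K] (b : K) : (upperMat b).det = 1 := by
  simp [upperMat, Matrix.det_fin_two]

/-- The upper unitriangular homomorphism `K → SL₂(K)`. -/
def upperSL2 (K : Type*) [Field K] : Multiplicative K →* Matrix.SpecialLinearGroup (Fin 2) K where
  toFun b := ⟨upperMat (Multiplicative.toAdd b), upperMat_det _⟩
  map_one' := Subtype.ext upperMat_zero
  map_mul' a b := Subtype.ext (upperMat_add _ _)

theorem upperSL2_injective (K : Type*) [Field K] : Function.Injective (upperSL2 K) := by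
  intro a b hab
  have h : upperMat (Multiplicative.toAdd a) = upperMat (Multiplicative.toAdd b) :=
    congrArg Subtype.val hab
  have h2 := congrFun (congrFun h 0) 1
  simpa [upperMat] using h2

theorem aps_GL2 {p : ℕ} [Fact p.Prime] (K : Type*) [Field K] [Fintype K] [CharP K p] :
    APS p (GL (Fin 2) K) := by
  classical
  let φ : Multiplicative K →* GL (Fin 2) K := Matrix.SpecialLinearGroup.toGL.comp (upperSL2 K)
  have hφ : Function.Injective φ := by
    intro a b hab
    apply upperSL2_injective K
    exact Matrix.SpecialLinearGroup.toGL_injective hab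
  obtain ⟨n, hp, hq⟩ := FiniteField.card K p
  have hcardU : Nat.card φ.range = Fintype.card K := by
    rw [← Nat.card_congr (MonoidHom.ofInjective hφ).toEquiv,
      Nat.card_congr (Multiplicative.toAdd (α := K)), Nat.card_eq_fintype_card]
  have hGL : Nat.card (GL (Fin 2) K) = (Fintype.card K ^ 2 - 1) * (Fintype.card K ^ 2 - Fintype.card K) := by
    rw [Matrix.card_GL_field, Fin.prod_univ_two]
    simp
  have hUp : IsPGroup p φ.range := IsPGroup.of_card (n := n) (by rw [hcardU, hq])
  have hqpos : 0 < Fintype.card K := Fintype.card_pos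
  have hpq : p ∣ Fintype.card K := by
    rw [hq]; exact dvd_pow_self p n.ne_zero
  have hidx : ¬ p ∣ φ.range.index := by
    intro hdvd
    have h1 : Nat.card φ.range * φ.range.index = Nat.card (GL (Fin 2) K) := Subgroup.card_mul_index _
    rw [hcardU, hGL] at h1
    set q := Fintype.card K with hqdef
    have hq1 : 1 ≤ q := hqpos
    have h2 : q ^ 2 - q = q * (q - 1) := by
      rw [Nat.mul_sub, mul_one, pow_two]
    rw [h2] at h1
    have h3 : φ.range.index = (q ^ 2 - 1) * (q - 1) := by
      apply Nat.eq_of_mul_eq_mul_left hqpos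
      rw [h1]; ring
    rw [h3] at hdvd
    have hpr : p.Prime := Fact.out
    rcases (Nat.Prime.dvd_mul hpr).mp hdvd with h | h
    · have h4 : p ∣ q ^ 2 := dvd_pow hpq (by norm_num)
      have h5 : 1 ≤ q ^ 2 := Nat.one_le_pow _ _ hqpos
      have h6 : p ∣ q ^ 2 - (q ^ 2 - 1) := Nat.dvd_sub h4 h
      have h7 : q ^ 2 - (q ^ 2 - 1) = 1 := by omega
      rw [h7] at h6
      exact hpr.one_lt.ne' (Nat.dvd_one.mp h6)
    · have h6 : p ∣ q - (q - 1) := Nat.dvd_sub hpq h
      have h7 : q - (q - 1) = 1 := by omega
      rw [h7] at h6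
      exact hpr.one_lt.ne' (Nat.dvd_one.mp h6)
  apply aps_of_sylow (hUp.toSylow hidx)
  intro x hx y hy
  rw [IsPGroup.mem_toSylow] at hx hy
  obtain ⟨a, rfl⟩ := hx
  obtain ⟨b, rfl⟩ := hy
  rw [← map_mul, ← map_mul, mul_comm]

theorem aps_SL2 {p : ℕ} [Fact p.Prime] (K : Type*) [Field K] [Fintype K] [CharP K p] :
    APS p (Matrix.SpecialLinearGroup (Fin 2) K) :=
  aps_of_injective Matrix.SpecialLinearGroup.toGL Matrix.SpecialLinearGroup.toGL_injective (aps_GL2 K)

theorem aps_PSL2 {p : ℕ} [Fact p.Prime] (K : Type*) [Field K] [Fintype K] [CharP K p] :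
    APS p (Matrix.ProjectiveSpecialLinearGroup (Fin 2) K) := by
  classical
  exact aps_of_surjective (QuotientGroup.mk' (Subgroup.center (Matrix.SpecialLinearGroup (Fin 2) K)))
    (QuotientGroup.mk'_surjective _) (aps_SL2 K)

end Cfsg.Agent.H42
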