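import Mathlib
import Cfsg.Prelude.Def_PLocal
import Cfsg.Agent.H42.PSub

set_option autoImplicit false

namespace Cfsg.Agent.H42

open Matrix

/-- Upper unitriangular matrices in `SL₃(ZMod p)`. -/
def IsUT3 {p : ℕ} (M : Matrix (Fin 3) (Fin 3) (ZMod p)) : Prop :=
  M 1 0 = 0 ∧ M 2 0 = 0 ∧ M 2 1 = 0 ∧ M 0 0 = 1 ∧ M 1 1 = 1 ∧ M 2 2 = 1

theorem isUT3_one {p : ℕ} : IsUT3 (1 : Matrix (Fin 3) (Fin 3) (ZMod p)) := by
  simp [IsUT3]

theorem isUT3_mul {p : ℕ} {M N : Matrix (Fin 3) (Fin 3) (ZMod p)} (hM : IsUT3 M) (hN : IsUT3 N) :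
    IsUT3 (M * N) := by
  obtain ⟨m1, m2, m3, m4, m5, m6⟩ := hM
  obtain ⟨n1, n2, n3, n4, n5, n6⟩ := hN
  refine ⟨?_, ?_, ?_, ?_, ?_, ?_⟩ <;>
    simp [Matrix.mul_apply, Fin.sum_univ_three, m1, m2, m3, m4, m5, m6, n1, n2, n3, n4, n5, n6]

theorem isUT3_adjugate {p : ℕ} {M : Matrix (Fin 3) (Fin 3) (ZMod p)} (hM : IsUT3 M) :
    IsUT3 (Matrix.adjugate M) := by
  obtain ⟨m1, m2, m3, m4, m5, m6⟩ := hM
  rw [Matrix.adjugate_fin_three]
  refine ⟨?_, ?_, ?_, ?_, ?_, ?_⟩ <;>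
    simp [m1, m2, m3, m4, m5, m6]

/-- The upper unitriangular subgroup of `SL₃(ZMod p)`. -/
def ut3 (p : ℕ) : Subgroup (Matrix.SpecialLinearGroup (Fin 3) (ZMod p)) where
  carrier := {M | IsUT3 (M : Matrix (Fin 3) (Fin 3) (ZMod p))}
  mul_mem' {a b} ha hb := by
    show IsUT3 ((a * b : Matrix.SpecialLinearGroup (Fin 3) (ZMod p)) : Matrix (Fin 3) (Fin 3) (ZMod p))
    rw [Matrix.SpecialLinearGroup.coe_mul]
    exact isUT3_mul ha hb
  one_mem' := by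
    show IsUT3 ((1 : Matrix.SpecialLinearGroup (Fin 3) (ZMod p)) : Matrix (Fin 3) (Fin 3) (ZMod p))
    rw [Matrix.SpecialLinearGroup.coe_one]
    exact isUT3_one
  inv_mem' {a} ha := by
    show IsUT3 ((a⁻¹ : Matrix.SpecialLinearGroup (Fin 3) (ZMod p)) : Matrix (Fin 3) (Fin 3) (ZMod p))
    rw [Matrix.SpecialLinearGroup.coe_inv]
    exact isUT3_adjugate ha

theorem ut3_pow {p : ℕ} [Fact p.Prime] (hp : p ≠ 2) (M : Matrix (Fin 3) (Fin 3) (ZMod p))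
    (hM : IsUT3 M) : M ^ p = 1 := by
  obtain ⟨m1, m2, m3, m4, m5, m6⟩ := hM
  have hp3 : 3 ≤ p := by
    have := (Fact.out : p.Prime).two_le
    omega
  set N : Matrix (Fin 3) (Fin 3) (ZMod p) := M - 1 with hN
  have hMN : M = 1 + N := by rw [hN]; abel
  have hN3 : N ^ 3 = 0 := by
    rw [pow_succ, pow_two]
    ext i j
    fin_cases i <;> fin_cases j <;>
      simp [hN, Matrix.mul_apply, Fin.sum_univ_three, m1, m2, m3, m4, m5, m6]
  have hNp : N ^ p = 0 := by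
    have h3 : N ^ p = N ^ 3 * N ^ (p - 3) := by
      rw [← pow_add]
      congr 1
      omega
    rw [h3, hN3, zero_mul]
  rw [hMN, add_pow_char_of_commute _ (Commute.one_left N), one_pow, hNp, add_zero]

theorem ut3_isPGroup {p : ℕ} [Fact p.Prime] (hp : p ≠ 2) : IsPGroup p (ut3 p) := by
  intro g
  refine ⟨1, ?_⟩
  apply Subtype.ext
  apply Subtype.ext
  have h := ut3_pow hp _ g.2
  rw [pow_one]
  show (((g : Matrix.SpecialLinearGroup (Fin 3) (ZMod p)) ^ p : Matrix.SpecialLinearGroup (Fin 3) (ZMod p)) : Matrix (Fin 3) (Fin 3) (ZMod p)) = 1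
  rw [Matrix.SpecialLinearGroup.coe_pow]
  exact h

/-- The first non-commuting element. -/
def qdA (p : ℕ) : Matrix.SpecialLinearGroup (Fin 3) (ZMod p) :=
  ⟨!![1, 1, 0; 0, 1, 0; 0, 0, 1], by simp [Matrix.det_fin_three]⟩

/-- The second non-commuting element. -/
def qdB (p : ℕ) : Matrix.SpecialLinearGroup (Fin 3) (ZMod p) :=
  ⟨!![1, 0, 0; 0, 1, 1; 0, 0, 1], by simp [Matrix.det_fin_three]⟩

theorem qdA_mem (p : ℕ) : qdA p ∈ Cfsg.qd p := by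
  apply Subgroup.subset_closure
  refine ⟨?_, ?_, ?_⟩ <;> simp [qdA]

theorem qdB_mem (p : ℕ) : qdB p ∈ Cfsg.qd p := by
  apply Subgroup.subset_closure
  refine ⟨?_, ?_, ?_⟩ <;> simp [qdB]

theorem qdA_ut (p : ℕ) : qdA p ∈ ut3 p := by
  show IsUT3 _
  refine ⟨?_, ?_, ?_, ?_, ?_, ?_⟩ <;> simp [qdA]

theorem qdB_ut (p : ℕ) : qdB p ∈ ut3 p := by
  show IsUT3 _
  refine ⟨?_, ?_, ?_, ?_, ?_, ?_⟩ <;> simp [qdB]

theorem qdAB_ne (p : ℕ) [Fact p.Prime] : qdA p * qdB p ≠ qdB p * qdA p := by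
  intro h
  have h1 : ((qdA p * qdB p : Matrix.SpecialLinearGroup (Fin 3) (ZMod p)) : Matrix (Fin 3) (Fin 3) (ZMod p)) 0 2
      = ((qdB p * qdA p : Matrix.SpecialLinearGroup (Fin 3) (ZMod p)) : Matrix (Fin 3) (Fin 3) (ZMod p)) 0 2 := by
    rw [h]
  rw [Matrix.SpecialLinearGroup.coe_mul, Matrix.SpecialLinearGroup.coe_mul] at h1
  simp [qdA, qdB, Matrix.mul_apply, Fin.sum_univ_three] at h1

theorem not_aps_qd {p : ℕ} [Fact p.Prime] (hp : p ≠ 2) : ¬ APS p ↥(Cfsg.qd p) := by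
  intro h
  have hQ : IsPGroup p ((ut3 p).subgroupOf (Cfsg.qd p)) :=
    (ut3_isPGroup hp).comap_of_injective (Cfsg.qd p).subtype (Cfsg.qd p).subtype_injective
  have h1 := h ((ut3 p).subgroupOf (Cfsg.qd p)) hQ ⟨qdA p, qdA_mem p⟩ (qdA_ut p) ⟨qdB p, qdB_mem p⟩ (qdB_ut p)
  exact qdAB_ne p (congrArg Subtype.val h1)

end Cfsg.Agent.H42
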