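import Mathlib
import Cfsg.Prelude.Def_ClassicalGeometry
import Cfsg.Agent.H42.SU3Grp

set_option autoImplicit false

namespace Cfsg.Agent.H42

open Matrix Cfsg.Agent.H17

section

variable {F : Type*} [Field F] [Fintype F] {q : ℕ}

theorem uinv_comm_of_orth (hF : Fintype.card F = q ^ 2) {n : ℕ} (v w : Fin n → F)
    (hvw : hermS hF n v w = 0) : uinv q v * uinv q w = uinv q w * uinv q v := by
  have hS := hermS_isSymm hF n
  have hwv : hermS hF n w v = 0 := by rw [← hS.eq v w, hvw, map_zero]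
  apply mat_ext_mulVec'
  intro x
  rw [← Matrix.mulVec_mulVec, ← Matrix.mulVec_mulVec, uinv_mulVec hF, uinv_mulVec hF,
    uinv_mulVec hF, uinv_mulVec hF]
  simp only [map_add, map_neg, map_smul, smul_eq_mul, hvw, hwv, mul_zero, add_zero]
  module

/-- The conjugated cross product. -/
def ucross (q : ℕ) (a b : Fin 3 → F) : Fin 3 → F :=
  ![a 1 ^ q * b 2 ^ q - a 2 ^ q * b 1 ^ q, a 2 ^ q * b 0 ^ q - a 0 ^ q * b 2 ^ q,
    a 0 ^ q * b 1 ^ q - a 1 ^ q * b 0 ^ q]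

theorem hermS_three (hF : Fintype.card F = q ^ 2) (x y : Fin 3 → F) :
    hermS hF 3 x y = y 0 * frobH hF (x 0) + y 1 * frobH hF (x 1) + y 2 * frobH hF (x 2) := by
  rw [hermS_apply]
  unfold Cfsg.hermForm
  rw [Fin.sum_univ_three]
  rfl

theorem ucross_orth_left (hF : Fintype.card F = q ^ 2) (a b : Fin 3 → F) :
    hermS hF 3 a (ucross q a b) = 0 := by
  rw [hermS_three]
  simp only [ucross, ← frobH_apply hF, Matrix.cons_val_zero, Matrix.cons_val_one,
    Matrix.cons_val_two, Matrix.head_cons, Matrix.tail_cons]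
  ring

theorem ucross_orth_right (hF : Fintype.card F = q ^ 2) (a b : Fin 3 → F) :
    hermS hF 3 b (ucross q a b) = 0 := by
  rw [hermS_three]
  simp only [ucross, ← frobH_apply hF, Matrix.cons_val_zero, Matrix.cons_val_one,
    Matrix.cons_val_two, Matrix.head_cons, Matrix.tail_cons]
  ring

theorem ucross_self (hF : Fintype.card F = q ^ 2) (a b : Fin 3 → F) :
    hermS hF 3 (ucross q a b) (ucross q a b) =
      hermS hF 3 a a * hermS hF 3 b b - hermS hF 3 a b * hermS hF 3 b a := by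
  rw [hermS_three, hermS_three, hermS_three, hermS_three, hermS_three]
  simp only [ucross, ← frobH_apply hF, Matrix.cons_val_zero, Matrix.cons_val_one,
    Matrix.cons_val_two, Matrix.head_cons, Matrix.tail_cons, map_sub, map_mul, frobH_invol]
  ring

/-- A unit vector orthogonal to two vectors with nonzero Gram determinant. -/
theorem exists_unit_perp (hF : Fintype.card F = q ^ 2) (a b : Fin 3 → F)
    (hD : hermS hF 3 a a * hermS hF 3 b b - hermS hF 3 a b * hermS hF 3 b a ≠ 0) :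
    ∃ u : Fin 3 → F, hermS hF 3 u u = 1 ∧ hermS hF 3 a u = 0 ∧ hermS hF 3 b u = 0 := by
  have hσ := frobH_ne_id hF
  have hσ2 := frobH_invol hF
  have hS := hermS_isSymm hF 3
  rw [← ucross_self hF] at hD
  obtain ⟨k, hk⟩ := exists_norm_eq (frobH hF) hσ hσ2 _ hD (hS.eq _ _)
  have hk0 : k ≠ 0 := by
    rintro rfl
    rw [zero_mul] at hk
    exact hD hk.symm
  have hσk0 : frobH hF k ≠ 0 := (map_ne_zero (frobH hF)).2 hk0
  refine ⟨k⁻¹ • ucross q a b, ?_, ?_, ?_⟩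
  · rw [hermS_smul_left, map_smul, smul_eq_mul, ← hk, map_inv₀]
    field_simp
  · rw [map_smul, ucross_orth_left hF, smul_zero]
  · rw [map_smul, ucross_orth_right hF, smul_zero]

/-- An isometry moving one unit vector to another. -/
theorem exists_isometry_unit (hF : Fintype.card F = q ^ 2) {n : ℕ} (v w : Fin n → F)
    (hv : hermS hF n v v = 1) (hw : hermS hF n w w = 1) :
    ∃ g : (Fin n → F) ≃ₗ[F] (Fin n → F),
      (∀ x y, hermS hF n (g x) (g y) = hermS hF n x y) ∧ g v = w := by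
  have hσ := frobH_ne_id hF
  have hσ2 := frobH_invol hF
  have hS := hermS_isSymm hF n
  have hnd := hermS_nondegenerate hF n
  have hw0 : w ≠ 0 := by
    rintro rfl
    rw [map_zero] at hw
    exact zero_ne_one hw
  obtain ⟨f, hf⟩ : ∃ f : (Fin n → F) →ₗ[F] (Fin n → F), ∀ x, f x = hermS hF n v x • w :=
    ⟨(hermS hF n v).smulRight w, fun x => rfl⟩
  have hfv : ∀ d : F, f (d • v) = d • w := by
    intro d
    rw [hf, map_smul, smul_eq_mul, hv, mul_one]
  obtain ⟨g, hg, hgX⟩ := witt_herm (frobH hF) hσ hσ2 (hermS hF n) hS hnd (Submodule.span F {v}) f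
    (by
      intro x hx x' hx'
      obtain ⟨d, rfl⟩ := Submodule.mem_span_singleton.1 hx
      obtain ⟨d', rfl⟩ := Submodule.mem_span_singleton.1 hx'
      rw [hfv, hfv]
      simp only [hermS_smul_left, map_smul, smul_eq_mul, hw, hv])
    (by
      intro x hx h0
      obtain ⟨d, rfl⟩ := Submodule.mem_span_singleton.1 hx
      rw [hfv] at h0
      rw [(smul_eq_zero.1 h0).resolve_right hw0, zero_smul])
  refine ⟨g, hg, ?_⟩
  rw [hgX v (Submodule.mem_span_singleton_self v)]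
  have := hfv 1
  rw [one_smul, one_smul] at this
  exact this

/-- Counting involutions with a property through their unit vectors. -/
theorem su3_inv_card_mul_pred (hF : Fintype.card F = q ^ 2) (h2 : (2 : F) ≠ 0)
    (P : ↥(Cfsg.SU 3 F q) → Prop) (P' : (Fin 3 → F) → Prop)
    (hPP' : ∀ (x : ↥(Cfsg.SU 3 F q)) (v : Fin 3 → F), x ≠ 1 → x * x = 1 → hermS hF 3 v v = 1 →
      suMat x = uinv q v → (P x ↔ P' v)) :
    Nat.card {x : ↥(Cfsg.SU 3 F q) // x ≠ 1 ∧ x * x = 1 ∧ P x} * (q + 1) =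
      Nat.card {v : Fin 3 → F // Cfsg.hermForm 3 F q v v = 1 ∧ P' v} := by
  classical
  have hsel : ∀ x : {x : ↥(Cfsg.SU 3 F q) // x ≠ 1 ∧ x * x = 1 ∧ P x},
      ∃ v : Fin 3 → F, hermS hF 3 v v = 1 ∧ suMat x.1 = uinv q v :=
    fun x => su3_inv_exists_unit hF h2 x.1 x.2.1 x.2.2.1
  choose s hs1 hs2 using hsel
  have hnorm : ∀ (c : {c : F // c ^ (q + 1) = 1}) (v : Fin 3 → F), hermS hF 3 v v = 1 →
      hermS hF 3 ((c : F) • v) ((c : F) • v) = 1 := by
    intro c v hv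
    rw [hermS_smul_left, map_smul, smul_eq_mul, hv, mul_one, frobH_apply, ← pow_succ]
    exact c.2
  have hP' : ∀ (x : {x : ↥(Cfsg.SU 3 F q) // x ≠ 1 ∧ x * x = 1 ∧ P x})
      (c : {c : F // c ^ (q + 1) = 1}), P' ((c : F) • s x) := by
    intro x c
    refine (hPP' x.1 _ x.2.1 x.2.2.1 (hnorm c (s x) (hs1 x)) ?_).1 x.2.2.2
    rw [hs2, uinv_smul hF (s x) c (hs1 x) (hnorm c (s x) (hs1 x))]
  rw [← H7.card_norm_fiber_ne hF 1 one_ne_zero (one_pow q), ← Nat.card_prod]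
  apply Nat.card_eq_of_bijective
    (fun p : {x : ↥(Cfsg.SU 3 F q) // x ≠ 1 ∧ x * x = 1 ∧ P x} × {c : F // c ^ (q + 1) = 1} =>
      (⟨(p.2 : F) • s p.1, hnorm p.2 (s p.1) (hs1 p.1), hP' p.1 p.2⟩ :
        {v : Fin 3 → F // Cfsg.hermForm 3 F q v v = 1 ∧ P' v}))
  constructor
  · rintro ⟨x, c⟩ ⟨x', c'⟩ h
    have h1 : (c : F) • s x = (c' : F) • s x' := congrArg Subtype.val h
    have h3 : uinv q ((c : F) • s x) = uinv q (s x) :=
      uinv_smul hF (s x) c (hs1 x) (hnorm c (s x) (hs1 x))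
    have h4 : uinv q ((c' : F) • s x') = uinv q (s x') :=
      uinv_smul hF (s x') c' (hs1 x') (hnorm c' (s x') (hs1 x'))
    have hxx : x = x' := by
      apply Subtype.ext
      apply suMat_inj
      rw [hs2, hs2, ← h3, ← h4, h1]
    subst hxx
    have hs0 : s x ≠ 0 := by
      intro h0
      have := hs1 x
      rw [h0, map_zero] at this
      exact zero_ne_one this
    have h5 : ((c : F) - (c' : F)) • s x = 0 := by
      rw [sub_smul, h1, sub_self]
    have h6 := (smul_eq_zero.1 h5).resolve_right hs0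
    have hcc : c = c' := Subtype.ext (sub_eq_zero.1 h6)
    rw [hcc]
  · rintro ⟨v, hv, hPv⟩
    have hv' : hermS hF 3 v v = 1 := hv
    obtain ⟨x, hx1, hx2, hx3⟩ := su3_exists_inv_of_unit hF h2 v hv'
    have hPx : P x := (hPP' x v hx1 hx2 hv' hx3).2 hPv
    have h1 : uinv q (s ⟨x, hx1, hx2, hPx⟩) = uinv q v := by
      rw [← hs2, hx3]
    obtain ⟨c, hc⟩ := (uinv_eq_iff hF h2 _ _ (hs1 ⟨x, hx1, hx2, hPx⟩) hv').1 h1
    have hc1 : c ^ (q + 1) = 1 := by
      have h3 := hv'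
      rw [hc, hermS_smul_left, map_smul, smul_eq_mul, hs1, mul_one, frobH_apply, ← pow_succ] at h3
      exact h3
    refine ⟨(⟨x, hx1, hx2, hPx⟩, ⟨c, hc1⟩), ?_⟩
    apply Subtype.ext
    exact hc.symm

/-- Transport of a count of unit vectors along an isometry. -/
theorem card_unit_transport (hF : Fintype.card F = q ^ 2) {n : ℕ}
    (g : (Fin n → F) ≃ₗ[F] (Fin n → F))
    (hg : ∀ x y, hermS hF n (g x) (g y) = hermS hF n x y)
    (Pa Pb : (Fin n → F) → Prop) (hab : ∀ w, Pa w ↔ Pb (g w)) :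
    Nat.card {w : Fin n → F // Cfsg.hermForm n F q w w = 1 ∧ Pa w} =
      Nat.card {w : Fin n → F // Cfsg.hermForm n F q w w = 1 ∧ Pb w} := by
  apply Nat.card_congr
  refine g.toEquiv.subtypeEquiv (fun w => ?_)
  have h1 : Cfsg.hermForm n F q (g w) (g w) = Cfsg.hermForm n F q w w := by
    rw [← hermS_apply hF, hg, hermS_apply]
  show _ ↔ Cfsg.hermForm n F q (g w) (g w) = 1 ∧ Pb (g w)
  rw [h1, hab]

theorem su3_commute_of_orth (hF : Fintype.card F = q ^ 2) (x y : ↥(Cfsg.SU 3 F q))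
    (v w : Fin 3 → F) (hX : suMat x = uinv q v) (hY : suMat y = uinv q w)
    (hvw : hermS hF 3 v w = 0) : Commute x y := by
  show x * y = y * x
  apply suMat_inj
  rw [suMat_mul, suMat_mul, hX, hY, uinv_comm_of_orth hF v w hvw]

theorem su3_orth_of_commute (hF : Fintype.card F = q ^ 2) (h2 : (2 : F) ≠ 0)
    (x y : ↥(Cfsg.SU 3 F q))
    (v w : Fin 3 → F) (hv : hermS hF 3 v v = 1) (hw : hermS hF 3 w w = 1)
    (hX : suMat x = uinv q v) (hY : suMat y = uinv q w) (hc : Commute x y) :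
    x = y ∨ hermS hF 3 v w = 0 := by
  have h1 : uinv q v * uinv q w = uinv q w * uinv q v := by
    rw [← hX, ← hY, ← suMat_mul, ← suMat_mul]
    exact congrArg suMat hc
  rcases uinv_comm_orth hF h2 v w hv hw h1 with h | h
  · left
    apply suMat_inj
    rw [hX, hY, h]
  · exact Or.inr h

theorem hermS_e2 (hF : Fintype.card F = q ^ 2) (w : Fin 3 → F) :
    hermS hF 3 (Pi.single 2 1) w = w 2 := by
  rw [hermS_apply, hermForm_single_right 3 hF]

theorem hermForm_three (hF : Fintype.card F = q ^ 2) (x : Fin 3 → F) :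
    Cfsg.hermForm 3 F q x x =
      x 0 * frobH hF (x 0) + x 1 * frobH hF (x 1) + x 2 * frobH hF (x 2) := by
  rw [← hermS_apply hF, hermS_three]

theorem std_count_perp (hF : Fintype.card F = q ^ 2) :
    Nat.card {w : Fin 3 → F // Cfsg.hermForm 3 F q w w = 1 ∧ hermS hF 3 (Pi.single 2 1) w = 0} =
      q * (q ^ 2 - 1) := by
  have h1 := H7.card_herm_unit hF 2
  have h2e : Even 2 := by decide
  rw [if_pos h2e] at h1
  norm_num at h1
  rw [← h1]
  apply Nat.card_congr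
  refine
    { toFun := fun w => ⟨![w.1 0, w.1 1], ?_⟩
      invFun := fun u => ⟨![u.1 0, u.1 1, 0], ?_, ?_⟩
      left_inv := ?_
      right_inv := ?_ }
  · have hw1 := w.2.1
    have hw2 := w.2.2
    rw [hermS_e2] at hw2
    rw [hermForm_three hF, hw2] at hw1
    unfold Cfsg.hermForm
    rw [Fin.sum_univ_two]
    simp only [Matrix.cons_val_zero, Matrix.cons_val_one]
    rw [← frobH_apply hF, ← frobH_apply hF]
    linear_combination hw1
  · have hu := u.2
    unfold Cfsg.hermForm at hu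
    rw [Fin.sum_univ_two, ← frobH_apply hF, ← frobH_apply hF] at hu
    rw [hermForm_three hF]
    simp only [Matrix.cons_val_zero, Matrix.cons_val_one, Matrix.cons_val_two, Matrix.head_cons,
      Matrix.tail_cons]
    linear_combination hu
  · rw [hermS_e2]
    rfl
  · rintro ⟨w, hw1, hw2⟩
    rw [hermS_e2] at hw2
    apply Subtype.ext
    ext i
    fin_cases i
    · rfl
    · rfl
    · exact hw2.symm
  · rintro ⟨u, hu⟩
    apply Subtype.ext
    ext i
    fin_cases i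
    · rfl
    · rfl

theorem far_iff (hF : Fintype.card F = q ^ 2) (w : Fin 3 → F)
    (hw : Cfsg.hermForm 3 F q w w = 1) :
    (hermS hF 3 (Pi.single 2 1) w ≠ 0 ∧ (¬ ∃ c : F, w = c • Pi.single 2 1) ∧
      ∀ u, hermS hF 3 u u = 1 → ¬ (hermS hF 3 (Pi.single 2 1) u = 0 ∧ hermS hF 3 w u = 0)) ↔
    (w 0 ≠ 0 ∧ w 0 * frobH hF (w 0) + w 1 * frobH hF (w 1) = 0) := by
  have hσ := frobH_ne_id hF
  have hσ2 := frobH_invol hF
  rw [hermForm_three hF] at hw
  constructor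
  · rintro ⟨h1, h2', h3⟩
    have hD : w 0 * frobH hF (w 0) + w 1 * frobH hF (w 1) = 0 := by
      by_contra hD
      have hDfix : frobH hF (w 0 * frobH hF (w 0) + w 1 * frobH hF (w 1)) =
          w 0 * frobH hF (w 0) + w 1 * frobH hF (w 1) := by
        simp only [map_add, map_mul, hσ2]
        ring
      obtain ⟨k, hk⟩ := exists_norm_eq (frobH hF) hσ hσ2 _ hD hDfix
      have hk0 : k ≠ 0 := by
        rintro rfl
        rw [zero_mul] at hk
        exact hD hk.symm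
      have hσk0 : frobH hF k ≠ 0 := (map_ne_zero (frobH hF)).2 hk0
      apply h3 (k⁻¹ • ![-(frobH hF (w 1)), frobH hF (w 0), 0])
      · rw [hermS_smul_left, map_smul, smul_eq_mul, hermS_three]
        simp only [Matrix.cons_val_zero, Matrix.cons_val_one, Matrix.cons_val_two,
          Matrix.head_cons, Matrix.tail_cons, map_neg, hσ2, map_inv₀, map_zero, mul_zero,
          add_zero]
        have e : -frobH hF (w 1) * -w 1 + frobH hF (w 0) * w 0 = k * frobH hF k := by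
          rw [hk]
          ring
        rw [e]
        field_simp
      · constructor
        · rw [hermS_e2]
          simp
        · rw [map_smul, hermS_three]
          simp only [Matrix.cons_val_zero, Matrix.cons_val_one, Matrix.cons_val_two,
            Matrix.head_cons, Matrix.tail_cons, zero_mul, add_zero, smul_eq_mul]
          ring
    refine ⟨?_, hD⟩
    intro h0
    rw [h0, zero_mul, zero_add] at hD
    have hw1 : w 1 = 0 := by
      rcases mul_eq_zero.1 hD with h | h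
      · exact h
      · exact (map_eq_zero (frobH hF)).1 h
    apply h2'
    refine ⟨w 2, ?_⟩
    ext i
    fin_cases i <;> simp [h0, hw1]
  · rintro ⟨h0, hD⟩
    have hN2 : w 2 * frobH hF (w 2) = 1 := by linear_combination hw - hD
    refine ⟨?_, ?_, ?_⟩
    · rw [hermS_e2]
      intro h
      rw [h, zero_mul] at hN2
      exact zero_ne_one hN2
    · rintro ⟨c, hc⟩
      apply h0
      rw [hc]
      simp
    · rintro u hu ⟨hu2, hwu⟩
      rw [hermS_e2] at hu2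
      rw [hermS_three, hu2] at hu hwu
      simp only [zero_mul, add_zero, map_zero, mul_zero] at hu hwu
      have hwu' := congrArg (frobH hF) hwu
      simp only [map_add, map_mul, hσ2, map_zero] at hwu'
      have h5 : (w 0 * frobH hF (w 0)) * 1 = 0 := by
        rw [← hu]
        linear_combination (frobH hF (u 0) * w 0) * hwu - (u 1 * frobH hF (w 1)) * hwu' +
          (u 1 * frobH hF (u 1)) * hD
      rw [mul_one] at h5
      rcases mul_eq_zero.1 h5 with h | h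
      · exact h0 h
      · exact h0 ((map_eq_zero (frobH hF)).1 h)

theorem std_count_far (hF : Fintype.card F = q ^ 2) :
    Nat.card {w : Fin 3 → F // Cfsg.hermForm 3 F q w w = 1 ∧
      (hermS hF 3 (Pi.single 2 1) w ≠ 0 ∧ (¬ ∃ c : F, w = c • Pi.single 2 1) ∧
        ∀ u, hermS hF 3 u u = 1 → ¬ (hermS hF 3 (Pi.single 2 1) u = 0 ∧ hermS hF 3 w u = 0))} =
      (q ^ 2 - 1) * ((q + 1) * (q + 1)) := by
  classical
  have hq := H7.two_le_of_card_sq hF
  have hσ2 := frobH_invol hF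
  have hN : ∀ x : F, x * frobH hF x = x ^ (q + 1) := fun x => by
    rw [frobH_apply, pow_succ']
  have hfib : ∀ a : {a : F // a ≠ 0},
      Nat.card ({b : F // b ^ (q + 1) = -(a.1 ^ (q + 1))} × {c : F // c ^ (q + 1) = 1}) =
        (q + 1) * (q + 1) := by
    intro a
    rw [Nat.card_prod, H7.card_norm_fiber_ne hF 1 one_ne_zero (one_pow q),
      H7.card_norm_fiber_ne hF (-(a.1 ^ (q + 1))) (neg_ne_zero.2 (pow_ne_zero _ a.2))]
    rw [← hN, ← frobH_apply hF, map_neg, map_mul, hσ2]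
    ring
  have hcard : Nat.card (Σ a : {a : F // a ≠ 0},
      {b : F // b ^ (q + 1) = -(a.1 ^ (q + 1))} × {c : F // c ^ (q + 1) = 1}) =
      (q ^ 2 - 1) * ((q + 1) * (q + 1)) := by
    rw [Nat.card_sigma]
    simp only [hfib, Finset.sum_const, Finset.card_univ, smul_eq_mul]
    rw [Fintype.card_congr (unitsEquivNeZero : Fˣ ≃ {a : F // a ≠ 0}).symm, Fintype.card_units, hF]
  rw [← hcard]
  symm
  have hunit : ∀ (a : {a : F // a ≠ 0})
      (p : {b : F // b ^ (q + 1) = -(a.1 ^ (q + 1))} × {c : F // c ^ (q + 1) = 1}),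
      Cfsg.hermForm 3 F q ![a.1, p.1.1, p.2.1] ![a.1, p.1.1, p.2.1] = 1 := by
    intro a p
    rw [hermForm_three hF]
    simp only [Matrix.cons_val_zero, Matrix.cons_val_one, Matrix.cons_val_two, Matrix.head_cons,
      Matrix.tail_cons, hN]
    rw [p.1.2, p.2.2]
    ring
  apply Nat.card_eq_of_bijective
    (fun x : (Σ a : {a : F // a ≠ 0},
      {b : F // b ^ (q + 1) = -(a.1 ^ (q + 1))} × {c : F // c ^ (q + 1) = 1}) =>
      (⟨![x.1.1, x.2.1.1, x.2.2.1], hunit x.1 x.2, (far_iff hF _ (hunit x.1 x.2)).2 (by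
        simp only [Matrix.cons_val_zero, Matrix.cons_val_one, Matrix.head_cons, hN]
        refine ⟨x.1.2, ?_⟩
        rw [x.2.1.2]
        ring)⟩ : {w : Fin 3 → F // Cfsg.hermForm 3 F q w w = 1 ∧
      (hermS hF 3 (Pi.single 2 1) w ≠ 0 ∧ (¬ ∃ c : F, w = c • Pi.single 2 1) ∧
        ∀ u, hermS hF 3 u u = 1 → ¬ (hermS hF 3 (Pi.single 2 1) u = 0 ∧ hermS hF 3 w u = 0))}))
  constructor
  · rintro ⟨⟨a, ha⟩, ⟨b, hb⟩, ⟨c, hc⟩⟩ ⟨⟨a', ha'⟩, ⟨b', hb'⟩, ⟨c', hc'⟩⟩ h
    have h1 : ![a, b, c] = ![a', b', c'] := congrArg Subtype.val h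
    have e0 : a = a' := congrFun h1 0
    have e1 : b = b' := congrFun h1 1
    have e2 : c = c' := congrFun h1 2
    subst e0 e1 e2
    rfl
  · rintro ⟨w, hw, hP⟩
    obtain ⟨h0, hD⟩ := (far_iff hF w hw).1 hP
    have hw' := hw
    rw [hermForm_three hF] at hw'
    rw [hN, hN] at hD
    rw [hN, hN, hN] at hw'
    refine ⟨⟨⟨w 0, h0⟩, ⟨w 1, by linear_combination hD⟩, ⟨w 2, by linear_combination hw' - hD⟩⟩, ?_⟩
    apply Subtype.ext
    ext i
    fin_cases i <;> rfl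

/-- The number of involutions commuting with a given one (other than itself). -/
theorem su3_comm_card (hF : Fintype.card F = q ^ 2) (h2 : (2 : F) ≠ 0)
    (t : ↥(Cfsg.SU 3 F q)) (ht : t ≠ 1) (ht2 : t * t = 1) :
    Nat.card {x : ↥(Cfsg.SU 3 F q) // x ≠ 1 ∧ x * x = 1 ∧ x ≠ t ∧ Commute t x} = q * (q - 1) := by
  obtain ⟨v, hv, hT⟩ := su3_inv_exists_unit hF h2 t ht ht2
  have h1 := su3_inv_card_mul_pred hF h2 (fun x => x ≠ t ∧ Commute t x)
    (fun w => hermS hF 3 v w = 0) (by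
    intro x w hx1 hx2 hw hX
    constructor
    · rintro ⟨hxt, hc⟩
      rcases su3_orth_of_commute hF h2 t x v w hv hw hT hX hc with h | h
      · exact absurd h.symm hxt
      · exact h
    · intro hvw
      refine ⟨?_, su3_commute_of_orth hF t x v w hT hX hvw⟩
      intro hxt
      have h3 : uinv q v = uinv q w := by rw [← hT, ← hX, hxt]
      obtain ⟨c, hc⟩ := (uinv_eq_iff hF h2 v w hv hw).1 h3
      rw [hc, map_smul, smul_eq_mul, hv, mul_one] at hvw
      rw [hvw, zero_smul] at hc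
      rw [hc, map_zero] at hw
      exact zero_ne_one hw)
  have he2 : hermS hF 3 (Pi.single 2 1) (Pi.single 2 1) = 1 := by
    rw [hermS_e2]
    simp
  obtain ⟨g, hg, hgv⟩ := exists_isometry_unit hF (Pi.single 2 1) v he2 hv
  have h3 := card_unit_transport hF g hg (fun w => hermS hF 3 (Pi.single 2 1) w = 0)
    (fun w => hermS hF 3 v w = 0) (by
    intro w
    rw [← hgv, hg])
  rw [← h3, std_count_perp hF] at h1
  have hq := H7.two_le_of_card_sq hF
  have e : q * (q ^ 2 - 1) = q * (q - 1) * (q + 1) := by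
    obtain ⟨d, rfl⟩ : ∃ d, q = d + 1 := ⟨q - 1, by omega⟩
    have : (d + 1) ^ 2 - 1 = d * (d + 2) := by
      apply Nat.sub_eq_of_eq_add
      ring
    rw [this]
    simp only [Nat.add_sub_cancel]
    ring
  rw [e] at h1
  exact Nat.eq_of_mul_eq_mul_right (by omega) h1

/-- The number of involutions at distance three. -/
theorem su3_far_card (hF : Fintype.card F = q ^ 2) (h2 : (2 : F) ≠ 0)
    (t : ↥(Cfsg.SU 3 F q)) (ht : t ≠ 1) (ht2 : t * t = 1) :
    Nat.card {x : ↥(Cfsg.SU 3 F q) // x ≠ 1 ∧ x * x = 1 ∧ ¬ Commute t x ∧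
      ∀ y : ↥(Cfsg.SU 3 F q), y ≠ 1 → y * y = 1 → ¬ (Commute t y ∧ Commute y x)} =
      (q + 1) * (q ^ 2 - 1) := by
  have hS := hermS_isSymm hF 3
  obtain ⟨v, hv, hT⟩ := su3_inv_exists_unit hF h2 t ht ht2
  have h1 := su3_inv_card_mul_pred hF h2
    (fun x => ¬ Commute t x ∧
      ∀ y : ↥(Cfsg.SU 3 F q), y ≠ 1 → y * y = 1 → ¬ (Commute t y ∧ Commute y x))
    (fun w => hermS hF 3 v w ≠ 0 ∧ (¬ ∃ c : F, w = c • v) ∧
        ∀ u, hermS hF 3 u u = 1 → ¬ (hermS hF 3 v u = 0 ∧ hermS hF 3 w u = 0)) (by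
    intro x w hx1 hx2 hw hX
    constructor
    · rintro ⟨hnc, hall⟩
      refine ⟨?_, ?_, ?_⟩
      · intro hvw
        exact hnc (su3_commute_of_orth hF t x v w hT hX hvw)
      · intro hex
        have h3 : uinv q v = uinv q w := (uinv_eq_iff hF h2 v w hv hw).2 hex
        have hxt : t = x := by
          apply suMat_inj
          rw [hT, hX, h3]
        apply hnc
        rw [hxt]
      · rintro u hu ⟨hvu, hwu⟩
        obtain ⟨y, hy1, hy2, hY⟩ := su3_exists_inv_of_unit hF h2 u hu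
        have huw : hermS hF 3 u w = 0 := by rw [← hS.eq w u, hwu, map_zero]
        exact hall y hy1 hy2 ⟨su3_commute_of_orth hF t y v u hT hY hvu,
          su3_commute_of_orth hF y x u w hY hX huw⟩
    · rintro ⟨hvw, hnex, hall⟩
      have hnc : ¬ Commute t x := by
        intro hc
        rcases su3_orth_of_commute hF h2 t x v w hv hw hT hX hc with h | h
        · apply hnex
          have h3 : uinv q v = uinv q w := by rw [← hT, ← hX, h]
          exact (uinv_eq_iff hF h2 v w hv hw).1 h3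
        · exact hvw h
      refine ⟨hnc, ?_⟩
      rintro y hy1 hy2 ⟨hty, hyx⟩
      obtain ⟨u, hu, hY⟩ := su3_inv_exists_unit hF h2 y hy1 hy2
      rcases su3_orth_of_commute hF h2 t y v u hv hu hT hY hty with h | h
      · apply hnc
        rw [h]
        exact hyx
      · rcases su3_orth_of_commute hF h2 y x u w hu hw hY hX hyx with h' | h'
        · apply hnc
          rw [← h']
          exact hty
        · have hwu : hermS hF 3 w u = 0 := by rw [← hS.eq u w, h', map_zero]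
          exact hall u hu ⟨h, hwu⟩)
  have he2 : hermS hF 3 (Pi.single 2 1) (Pi.single 2 1) = 1 := by
    rw [hermS_e2]
    simp
  obtain ⟨g, hg, hgv⟩ := exists_isometry_unit hF (Pi.single 2 1) v he2 hv
  have h3 := card_unit_transport hF g hg
    (fun w => hermS hF 3 (Pi.single 2 1) w ≠ 0 ∧ (¬ ∃ c : F, w = c • Pi.single 2 1) ∧
        ∀ u, hermS hF 3 u u = 1 → ¬ (hermS hF 3 (Pi.single 2 1) u = 0 ∧ hermS hF 3 w u = 0))
    (fun w => hermS hF 3 v w ≠ 0 ∧ (¬ ∃ c : F, w = c • v) ∧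
        ∀ u, hermS hF 3 u u = 1 → ¬ (hermS hF 3 v u = 0 ∧ hermS hF 3 w u = 0)) (by
    intro w
    have e1 : hermS hF 3 v (g w) = hermS hF 3 (Pi.single 2 1) w := by rw [← hgv, hg]
    have e2 : (∃ c : F, g w = c • v) ↔ (∃ c : F, w = c • Pi.single 2 1) := by
      constructor
      · rintro ⟨c, hc⟩
        refine ⟨c, g.injective ?_⟩
        rw [hc, map_smul, hgv]
      · rintro ⟨c, hc⟩
        refine ⟨c, ?_⟩
        rw [hc, map_smul, hgv]
    have e3 : (∀ u, hermS hF 3 u u = 1 → ¬ (hermS hF 3 v u = 0 ∧ hermS hF 3 (g w) u = 0)) ↔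
        (∀ u, hermS hF 3 u u = 1 →
          ¬ (hermS hF 3 (Pi.single 2 1) u = 0 ∧ hermS hF 3 w u = 0)) := by
      constructor
      · rintro h u hu ⟨h5, h6⟩
        apply h (g u)
        · rw [hg, hu]
        · constructor
          · rw [← hgv, hg, h5]
          · rw [hg, h6]
      · rintro h u hu ⟨h5, h6⟩
        apply h (g.symm u)
        · rw [← hg, g.apply_symm_apply, hu]
        · constructor
          · rw [← hg, g.apply_symm_apply, hgv, h5]
          · rw [← hg, g.apply_symm_apply, h6]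
    rw [e1, e2, e3])
  rw [← h3, std_count_far hF] at h1
  have hq := H7.two_le_of_card_sq hF
  have e : (q ^ 2 - 1) * ((q + 1) * (q + 1)) = (q + 1) * (q ^ 2 - 1) * (q + 1) := by ring
  rw [e] at h1
  exact Nat.eq_of_mul_eq_mul_right (by omega) h1

theorem card_split' {α : Type*} [Finite α] (p r : α → Prop) :
    Nat.card {a // p a} = Nat.card {a // p a ∧ r a} + Nat.card {a // p a ∧ ¬ r a} := by
  classical
  rw [Nat.card_congr (Equiv.sumCompl (fun x : {a // p a} => r x.1)).symm, Nat.card_sum,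
    Nat.card_congr (Equiv.subtypeSubtypeEquivSubtypeInter p r),
    Nat.card_congr (Equiv.subtypeSubtypeEquivSubtypeInter p (fun a => ¬ r a))]

/-- The number of involutions at distance two. -/
theorem su3_mid_card (hF : Fintype.card F = q ^ 2) (h2 : (2 : F) ≠ 0) (hq : Odd q)
    (t : ↥(Cfsg.SU 3 F q)) (ht : t ≠ 1) (ht2 : t * t = 1) :
    Nat.card {x : ↥(Cfsg.SU 3 F q) // x ≠ 1 ∧ x * x = 1 ∧ ¬ Commute t x ∧
        ∃ y : ↥(Cfsg.SU 3 F q), y ≠ 1 ∧ y * y = 1 ∧ Commute t y ∧ Commute y x} =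
      q * (q - 2) * (q ^ 2 - 1) := by
  have hq2 := H7.two_le_of_card_sq hF
  have htot := su3_inv_card hF h2
  have hA1 := su3_comm_card hF h2 t ht ht2
  have hA3 := su3_far_card hF h2 t ht ht2
  have s1 := card_split' (fun x : ↥(Cfsg.SU 3 F q) => x ≠ 1 ∧ x * x = 1) (fun x => Commute t x)
  have s2 := card_split' (fun x : ↥(Cfsg.SU 3 F q) => (x ≠ 1 ∧ x * x = 1) ∧ Commute t x)
    (fun x => x = t)
  have s3 := card_split' (fun x : ↥(Cfsg.SU 3 F q) => (x ≠ 1 ∧ x * x = 1) ∧ ¬ Commute t x)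
    (fun x => ∃ y : ↥(Cfsg.SU 3 F q), y ≠ 1 ∧ y * y = 1 ∧ Commute t y ∧ Commute y x)
  have c1 : Nat.card {x : ↥(Cfsg.SU 3 F q) // ((x ≠ 1 ∧ x * x = 1) ∧ Commute t x) ∧ x = t} = 1 := by
    rw [Nat.card_eq_one_iff_exists]
    refine ⟨⟨t, ⟨⟨ht, ht2⟩, Commute.refl t⟩, rfl⟩, ?_⟩
    rintro ⟨y, _, hy⟩
    exact Subtype.ext hy
  have c2 : Nat.card {x : ↥(Cfsg.SU 3 F q) // ((x ≠ 1 ∧ x * x = 1) ∧ Commute t x) ∧ ¬ x = t} =
      Nat.card {x : ↥(Cfsg.SU 3 F q) // x ≠ 1 ∧ x * x = 1 ∧ x ≠ t ∧ Commute t x} :=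
    Nat.card_congr (Equiv.subtypeEquivRight (fun x =>
      ⟨fun ⟨⟨⟨h1, h2⟩, h3⟩, h4⟩ => ⟨h1, h2, h4, h3⟩, fun ⟨h1, h2, h4, h3⟩ => ⟨⟨⟨h1, h2⟩, h3⟩, h4⟩⟩))
  have c3 : Nat.card {x : ↥(Cfsg.SU 3 F q) // ((x ≠ 1 ∧ x * x = 1) ∧ ¬ Commute t x) ∧
        ∃ y : ↥(Cfsg.SU 3 F q), y ≠ 1 ∧ y * y = 1 ∧ Commute t y ∧ Commute y x} =
      Nat.card {x : ↥(Cfsg.SU 3 F q) // x ≠ 1 ∧ x * x = 1 ∧ ¬ Commute t x ∧
        ∃ y : ↥(Cfsg.SU 3 F q), y ≠ 1 ∧ y * y = 1 ∧ Commute t y ∧ Commute y x} :=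
    Nat.card_congr (Equiv.subtypeEquivRight (fun x =>
      ⟨fun ⟨⟨⟨h1, h2⟩, h3⟩, h4⟩ => ⟨h1, h2, h3, h4⟩, fun ⟨h1, h2, h3, h4⟩ => ⟨⟨⟨h1, h2⟩, h3⟩, h4⟩⟩))
  have c4 : Nat.card {x : ↥(Cfsg.SU 3 F q) // ((x ≠ 1 ∧ x * x = 1) ∧ ¬ Commute t x) ∧
        ¬ ∃ y : ↥(Cfsg.SU 3 F q), y ≠ 1 ∧ y * y = 1 ∧ Commute t y ∧ Commute y x} =
      Nat.card {x : ↥(Cfsg.SU 3 F q) // x ≠ 1 ∧ x * x = 1 ∧ ¬ Commute t x ∧
      ∀ y : ↥(Cfsg.SU 3 F q), y ≠ 1 → y * y = 1 → ¬ (Commute t y ∧ Commute y x)} :=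
    Nat.card_congr (Equiv.subtypeEquivRight (fun x => by
      constructor
      · rintro ⟨⟨⟨h1, h2⟩, h3⟩, h4⟩
        refine ⟨h1, h2, h3, ?_⟩
        intro y hy1 hy2 hc
        exact h4 ⟨y, hy1, hy2, hc.1, hc.2⟩
      · rintro ⟨h1, h2, h3, h4⟩
        refine ⟨⟨⟨h1, h2⟩, h3⟩, ?_⟩
        rintro ⟨y, hy1, hy2, hc1, hc2⟩
        exact h4 y hy1 hy2 ⟨hc1, hc2⟩))
  rw [c1, c2, hA1] at s2
  rw [c3, c4, hA3] at s3
  rw [htot, s2, s3] at s1
  obtain ⟨A, hA⟩ : ∃ A, A = Nat.card {x : ↥(Cfsg.SU 3 F q) // x ≠ 1 ∧ x * x = 1 ∧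
      ¬ Commute t x ∧ ∃ y : ↥(Cfsg.SU 3 F q), y ≠ 1 ∧ y * y = 1 ∧ Commute t y ∧ Commute y x} :=
    ⟨_, rfl⟩
  rw [← hA] at s1 ⊢
  have hq3 : 3 ≤ q := by
    rcases hq with ⟨k, hk⟩
    omega
  obtain ⟨d, rfl⟩ : ∃ d, q = d + 2 := ⟨q - 2, by omega⟩
  have e1 : (d + 2) ^ 2 - 1 = d ^ 2 + 4 * d + 3 := by
    apply Nat.sub_eq_of_eq_add
    ring
  have e2 : (d + 2) ^ 2 - (d + 2) + 1 = d ^ 2 + 3 * d + 3 := by
    have : (d + 2) ^ 2 - (d + 2) = d ^ 2 + 3 * d + 2 := by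
      apply Nat.sub_eq_of_eq_add
      ring
    rw [this]
  have e3 : d + 2 - 1 = d + 1 := by omega
  have e4 : d + 2 - 2 = d := by omega
  rw [e1, e2, e3] at s1
  rw [e1, e4]
  nlinarith [s1]

/-- The commuting involution graph has diameter at most three. -/
theorem su3_path (hF : Fintype.card F = q ^ 2) (h2 : (2 : F) ≠ 0)
    (t x : ↥(Cfsg.SU 3 F q)) (ht : t ≠ 1) (ht2 : t * t = 1) (hx : x ≠ 1) (hx2 : x * x = 1) :
    ∃ y z : ↥(Cfsg.SU 3 F q), y ≠ 1 ∧ y * y = 1 ∧ z ≠ 1 ∧ z * z = 1 ∧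
      Commute t y ∧ Commute y z ∧ Commute z x := by
  have hS := hermS_isSymm hF 3
  obtain ⟨v, hv, hT⟩ := su3_inv_exists_unit hF h2 t ht ht2
  obtain ⟨w, hw, hX⟩ := su3_inv_exists_unit hF h2 x hx hx2
  by_cases hD : hermS hF 3 v v * hermS hF 3 w w - hermS hF 3 v w * hermS hF 3 w v = 0
  · -- tangent case
    have he2 : hermS hF 3 (Pi.single 2 1) (Pi.single 2 1) = 1 := by
      rw [hermS_e2]
      simp
    obtain ⟨g, hg, hgv⟩ := exists_isometry_unit hF (Pi.single 2 1) v he2 hv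
    obtain ⟨u₁, hu₁⟩ : ∃ u₁, u₁ = g (Pi.single 0 1) := ⟨_, rfl⟩
    obtain ⟨u₂, hu₂⟩ : ∃ u₂, u₂ = g (Pi.single 1 1) := ⟨_, rfl⟩
    have h11 : hermS hF 3 u₁ u₁ = 1 := by
      rw [hu₁, hg, hermS_single_single, if_pos rfl]
    have h22 : hermS hF 3 u₂ u₂ = 1 := by
      rw [hu₂, hg, hermS_single_single, if_pos rfl]
    have hv1 : hermS hF 3 v u₁ = 0 := by
      rw [hu₁, ← hgv, hg, hermS_single_single, if_neg (by decide)]
    have hv2 : hermS hF 3 v u₂ = 0 := by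
      rw [hu₂, ← hgv, hg, hermS_single_single, if_neg (by decide)]
    have h12 : hermS hF 3 u₁ u₂ = 0 := by
      rw [hu₁, hu₂, hg, hermS_single_single, if_neg (by decide)]
    have hexp := orthonormal3_expand hF v u₁ u₂ hv h11 h22 hv1 hv2 h12 w
    have hsum : hermS hF 3 w w = hermS hF 3 v w * hermS hF 3 w v +
        hermS hF 3 u₁ w * hermS hF 3 w u₁ + hermS hF 3 u₂ w * hermS hF 3 w u₂ := by
      have h5 := congrArg (hermS hF 3 w) hexp
      rw [h5]
      simp only [map_add, map_smul, smul_eq_mul]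
    rw [hv, hw] at hD
    rw [hw] at hsum
    have hkey : hermS hF 3 u₁ w * hermS hF 3 w u₁ + hermS hF 3 u₂ w * hermS hF 3 w u₂ = 0 := by
      linear_combination hD - hsum
    obtain ⟨u, hu, hvu, hDu⟩ : ∃ u, hermS hF 3 u u = 1 ∧ hermS hF 3 v u = 0 ∧
        hermS hF 3 u u * hermS hF 3 w w - hermS hF 3 u w * hermS hF 3 w u ≠ 0 := by
      by_cases h1 : hermS hF 3 u₁ w * hermS hF 3 w u₁ = 1
      · refine ⟨u₂, h22, hv2, ?_⟩
        rw [h22, hw]
        intro h0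
        apply h2
        linear_combination hkey - h1 + h0
      · refine ⟨u₁, h11, hv1, ?_⟩
        rw [h11, hw]
        intro h0
        apply h1
        linear_combination -h0
    obtain ⟨u', hu', huu', hwu'⟩ := exists_unit_perp hF u w hDu
    obtain ⟨y, hy1, hy2, hY⟩ := su3_exists_inv_of_unit hF h2 u hu
    obtain ⟨z, hz1, hz2, hZ⟩ := su3_exists_inv_of_unit hF h2 u' hu'
    have hu'w : hermS hF 3 u' w = 0 := by rw [← hS.eq w u', hwu', map_zero]
    exact ⟨y, z, hy1, hy2, hz1, hz2, su3_commute_of_orth hF t y v u hT hY hvu,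
      su3_commute_of_orth hF y z u u' hY hZ huu', su3_commute_of_orth hF z x u' w hZ hX hu'w⟩
  · obtain ⟨u, hu, hvu, hwu⟩ := exists_unit_perp hF v w hD
    obtain ⟨y, hy1, hy2, hY⟩ := su3_exists_inv_of_unit hF h2 u hu
    have huw : hermS hF 3 u w = 0 := by rw [← hS.eq w u, hwu, map_zero]
    exact ⟨y, y, hy1, hy2, hy1, hy2, su3_commute_of_orth hF t y v u hT hY hvu, Commute.refl y,
      su3_commute_of_orth hF y x u w hY hX huw⟩

/-- Statement S2356. -/
theorem su3_commuting_graph {F : Type*} [Field F] [Fintype F] {q : ℕ} (hq : Odd q)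
    (hF : Fintype.card F = q ^ 2) (t : ↥(Cfsg.SU 3 F q)) (ht : t ≠ 1) (ht2 : t * t = 1) :
    Nat.card {x : ↥(Cfsg.SU 3 F q) // x ≠ 1 ∧ x * x = 1 ∧ x ≠ t ∧ Commute t x} = q * (q - 1) ∧
    Nat.card {x : ↥(Cfsg.SU 3 F q) // x ≠ 1 ∧ x * x = 1 ∧ ¬ Commute t x ∧
        ∃ y : ↥(Cfsg.SU 3 F q), y ≠ 1 ∧ y * y = 1 ∧ Commute t y ∧ Commute y x} = q * (q - 2) * (q ^ 2 - 1) ∧
    Nat.card {x : ↥(Cfsg.SU 3 F q) // x ≠ 1 ∧ x * x = 1 ∧ ¬ Commute t x ∧
        ∀ y : ↥(Cfsg.SU 3 F q), y ≠ 1 → y * y = 1 → ¬ (Commute t y ∧ Commute y x)} = (q + 1) * (q ^ 2 - 1) ∧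
    ∀ x : ↥(Cfsg.SU 3 F q), x ≠ 1 → x * x = 1 →
      ∃ y z : ↥(Cfsg.SU 3 F q), y ≠ 1 ∧ y * y = 1 ∧ z ≠ 1 ∧ z * z = 1 ∧
        Commute t y ∧ Commute y z ∧ Commute z x := by
  have h2 := two_ne_zero_of_odd hF hq
  exact ⟨su3_comm_card hF h2 t ht ht2, su3_mid_card hF h2 hq t ht ht2, su3_far_card hF h2 t ht ht2,
    fun x hx hx2 => su3_path hF h2 t x ht ht2 hx hx2⟩

end

end Cfsg.Agent.H42
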