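import Mathlib
import Cfsg.Prelude.Def_ClassicalGeometry
import Cfsg.Agent.H17.Symp
import Cfsg.Agent.H42.Char2Pres

set_option autoImplicit false

namespace Cfsg.Agent.H42

open Matrix Cfsg.Agent.H17

section

variable {F : Type*} [Field F] (m : ℕ)

theorem sympBilin_isAlt : (sympBilin m F).IsAlt := by
  intro x
  rw [sympBilin_apply]
  exact sympForm_self m x

theorem sympBilin_sepLeft (x : Fin m ⊕ Fin m → F) (hx : ∀ y, sympBilin m F x y = 0) : x = 0 := by
  funext i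
  have h := hx (Matrix.J (Fin m) F *ᵥ Pi.single i 1)
  rw [sympBilin_apply, Cfsg.sympForm, Matrix.mulVec_mulVec, Matrix.J_squared, Matrix.neg_mulVec,
    Matrix.one_mulVec, dotProduct_neg, dotProduct_single, mul_one, neg_eq_zero] at h
  exact h

theorem sympBilin_nondeg : (sympBilin m F).Nondegenerate :=
  ⟨sympBilin_sepLeft m, fun y hy => sympBilin_sepLeft m y (fun x => by
    rw [sympBilin_apply, sympForm_swap, ← sympBilin_apply, hy, neg_zero])⟩

variable {m}

/-- The operator `x ↦ A x - x`. -/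
noncomputable def nOp (A : Matrix (Fin m ⊕ Fin m) (Fin m ⊕ Fin m) F) :
    (Fin m ⊕ Fin m → F) →ₗ[F] (Fin m ⊕ Fin m → F) := (A - 1).mulVecLin

theorem nOp_apply (A : Matrix (Fin m ⊕ Fin m) (Fin m ⊕ Fin m) F) (x : Fin m ⊕ Fin m → F) :
    nOp A x = A *ᵥ x - x := by
  rw [nOp, Matrix.mulVecLin_apply, Matrix.sub_mulVec, Matrix.one_mulVec]

theorem nOp_selfadj (A : Matrix (Fin m ⊕ Fin m) (Fin m ⊕ Fin m) F)
    (hA : A ∈ Matrix.symplecticGroup (Fin m) F) (hAA : A * A = 1) (x y : Fin m ⊕ Fin m → F) :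
    sympBilin m F (nOp A x) y = sympBilin m F x (nOp A y) := by
  have h := (mem_symplecticGroup_iff_form m A).1 hA
  have h1 : Cfsg.sympForm m F (A *ᵥ x) y = Cfsg.sympForm m F x (A *ᵥ y) := by
    have h2 := h x (A *ᵥ y)
    rw [Matrix.mulVec_mulVec, hAA, Matrix.one_mulVec] at h2
    exact h2
  rw [nOp_apply, nOp_apply, map_sub, map_sub, LinearMap.sub_apply, sympBilin_apply,
    sympBilin_apply, sympBilin_apply, h1]

theorem nOp_sq [CharP F 2] (A : Matrix (Fin m ⊕ Fin m) (Fin m ⊕ Fin m) F) (hAA : A * A = 1)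
    (x : Fin m ⊕ Fin m → F) : nOp A (nOp A x) = 0 := by
  rw [nOp_apply, nOp_apply, Matrix.mulVec_sub, Matrix.mulVec_mulVec, hAA, Matrix.one_mulVec]
  have h2 : (2 : F) = 0 := CharTwo.two_eq_zero
  have h3 : x - A *ᵥ x - (A *ᵥ x - x) = (2 : F) • (x - A *ᵥ x) := by
    rw [two_smul]
    abel
  rw [h3, h2, zero_smul]

theorem nOp_alt_iff (A : Matrix (Fin m ⊕ Fin m) (Fin m ⊕ Fin m) F) :
    (∀ x, sympBilin m F (nOp A x) x = 0) ↔ ∀ v, Cfsg.sympForm m F v (A *ᵥ v) = 0 := by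
  have key : ∀ x, sympBilin m F (nOp A x) x = - Cfsg.sympForm m F x (A *ᵥ x) := by
    intro x
    rw [nOp_apply, map_sub, LinearMap.sub_apply, sympBilin_apply, sympBilin_apply, sympForm_self,
      sub_zero, sympForm_swap]
  constructor
  · intro h v
    have := h v
    rw [key, neg_eq_zero] at this
    exact this
  · intro h x
    rw [key, h, neg_zero]

/-- From an isometry intertwining the operators to conjugacy in the symplectic group. -/
theorem sp_conj_of_equiv (a b : ↥(Matrix.symplecticGroup (Fin m) F))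
    (g : (Fin m ⊕ Fin m → F) ≃ₗ[F] (Fin m ⊕ Fin m → F))
    (hg : ∀ v w, sympBilin m F (g v) (g w) = sympBilin m F v w)
    (hgN : ∀ y, nOp (b : Matrix (Fin m ⊕ Fin m) (Fin m ⊕ Fin m) F) (g y) =
      g (nOp (a : Matrix (Fin m ⊕ Fin m) (Fin m ⊕ Fin m) F) y)) : IsConj a b := by
  set G : Matrix (Fin m ⊕ Fin m) (Fin m ⊕ Fin m) F :=
    LinearMap.toMatrix' (g : (Fin m ⊕ Fin m → F) →ₗ[F] (Fin m ⊕ Fin m → F)) with hGdef
  have hGv : ∀ x, G *ᵥ x = g x := by
    intro x
    rw [← Matrix.toLin'_apply, hGdef, Matrix.toLin'_toMatrix']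
    rfl
  have hG : G ∈ Matrix.symplecticGroup (Fin m) F := by
    rw [mem_symplecticGroup_iff_form]
    intro u v
    rw [hGv, hGv, ← sympBilin_apply, hg, sympBilin_apply]
  have hGA : G * (a : Matrix (Fin m ⊕ Fin m) (Fin m ⊕ Fin m) F) =
      (b : Matrix (Fin m ⊕ Fin m) (Fin m ⊕ Fin m) F) * G := by
    apply matrix_ext_mulVec
    intro x
    rw [← Matrix.mulVec_mulVec, ← Matrix.mulVec_mulVec, hGv, hGv]
    have h1 := hgN x
    rw [nOp_apply, nOp_apply, map_sub] at h1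
    have h2 := sub_left_injective h1
    exact h2.symm
  rw [isConj_iff]
  refine ⟨⟨G, hG⟩, ?_⟩
  rw [mul_inv_eq_iff_eq_mul]
  apply Subtype.ext
  exact hGA

end

end Cfsg.Agent.H42
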