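import Mathlib
import Cfsg.Prelude.Def_ClassicalGeometry
import Cfsg.Agent.H42.SpInv

set_option autoImplicit false

namespace Cfsg.Agent.H42

open Matrix Cfsg.Agent.H17

/-- Involutions of `Sp_{2m}(F)` (char 2, `F` finite) with equal rank and equal type are
conjugate. -/
theorem sp_conj_of_type {F : Type*} [Field F] [Finite F] [CharP F 2] {m : ℕ}
    (a b : ↥(Matrix.symplecticGroup (Fin m) F))
    (ha : (a : Matrix (Fin m ⊕ Fin m) (Fin m ⊕ Fin m) F) * (a : Matrix (Fin m ⊕ Fin m) (Fin m ⊕ Fin m) F) = 1)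
    (hb : (b : Matrix (Fin m ⊕ Fin m) (Fin m ⊕ Fin m) F) * (b : Matrix (Fin m ⊕ Fin m) (Fin m ⊕ Fin m) F) = 1)
    (hrank : ((a : Matrix (Fin m ⊕ Fin m) (Fin m ⊕ Fin m) F) - 1).rank =
      ((b : Matrix (Fin m ⊕ Fin m) (Fin m ⊕ Fin m) F) - 1).rank)
    (htype : (∀ v, Cfsg.sympForm m F v ((a : Matrix (Fin m ⊕ Fin m) (Fin m ⊕ Fin m) F) *ᵥ v) = 0) ↔
      (∀ v, Cfsg.sympForm m F v ((b : Matrix (Fin m ⊕ Fin m) (Fin m ⊕ Fin m) F) *ᵥ v) = 0)) :
    IsConj a b := by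
  have hsq : ∀ x : F, ∃ y : F, y * y = x := by
    intro x
    obtain ⟨r, hr⟩ := FiniteField.isSquare_of_char_two (ringChar.eq F 2) x
    exact ⟨r, hr.symm⟩
  have hsym : ∀ x y : Fin m ⊕ Fin m → F, sympBilin m F x y = sympBilin m F y x := by
    intro x y
    rw [sympBilin_apply, sympBilin_apply, sympForm_swap, CharTwo.neg_eq]
  have hnd := (sympBilin_nondeg (F := F) m).1
  have hNa := nOp_selfadj (a : Matrix (Fin m ⊕ Fin m) (Fin m ⊕ Fin m) F) a.2 ha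
  have hNb := nOp_selfadj (b : Matrix (Fin m ⊕ Fin m) (Fin m ⊕ Fin m) F) b.2 hb
  have hsa := nOp_sq (a : Matrix (Fin m ⊕ Fin m) (Fin m ⊕ Fin m) F) ha
  have hsb := nOp_sq (b : Matrix (Fin m ⊕ Fin m) (Fin m ⊕ Fin m) F) hb
  have hrank' : Module.finrank F (LinearMap.range (nOp (a : Matrix (Fin m ⊕ Fin m) (Fin m ⊕ Fin m) F))) =
      Module.finrank F (LinearMap.range (nOp (b : Matrix (Fin m ⊕ Fin m) (Fin m ⊕ Fin m) F))) := hrank
  by_cases hta : ∀ v, Cfsg.sympForm m F v ((a : Matrix (Fin m ⊕ Fin m) (Fin m ⊕ Fin m) F) *ᵥ v) = 0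
  · have htb := htype.1 hta
    obtain ⟨ka, ta, hPa⟩ := pres_alt (sympBilin m F) hsym hnd _ hNa ((nOp_alt_iff _).2 hta)
    obtain ⟨kb, tb, hPb⟩ := pres_alt (sympBilin m F) hsym hnd _ hNb ((nOp_alt_iff _).2 htb)
    have h1 := pres_finrank _ _ _ Sum.swap_swap ta hPa
    have h2 := pres_finrank _ _ _ Sum.swap_swap tb hPb
    rw [Fintype.card_sum, Fintype.card_fin] at h1 h2
    have hk : ka = kb := by omega
    subst hk
    obtain ⟨g, hg, hgN⟩ := pres_conj (sympBilin m F) (sympBilin_nondeg m) (sympBilin_isAlt m)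
      _ _ hNa hNb hsa hsb Sum.swap Sum.swap_swap ta tb hPa hPb
    exact sp_conj_of_equiv a b g hg hgN
  · have htb : ¬ ∀ v, Cfsg.sympForm m F v ((b : Matrix (Fin m ⊕ Fin m) (Fin m ⊕ Fin m) F) *ᵥ v) = 0 :=
      fun h => hta (htype.2 h)
    have hna : ∃ x, sympBilin m F (nOp (a : Matrix (Fin m ⊕ Fin m) (Fin m ⊕ Fin m) F) x) x ≠ 0 := by
      by_contra hcon
      push Not at hcon
      exact hta ((nOp_alt_iff _).1 hcon)
    have hnb : ∃ x, sympBilin m F (nOp (b : Matrix (Fin m ⊕ Fin m) (Fin m ⊕ Fin m) F) x) x ≠ 0 := by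
      by_contra hcon
      push Not at hcon
      exact htb ((nOp_alt_iff _).1 hcon)
    obtain ⟨ra, ta, hPa⟩ := pres_nonalt hsq (sympBilin m F) hsym hnd _ hNa hna
    obtain ⟨rb, tb, hPb⟩ := pres_nonalt hsq (sympBilin m F) hsym hnd _ hNb hnb
    have h1 := pres_finrank _ _ _ (fun x => rfl) ta hPa
    have h2 := pres_finrank _ _ _ (fun x => rfl) tb hPb
    rw [Fintype.card_fin] at h1 h2
    have hk : ra = rb := by omega
    subst hk
    obtain ⟨g, hg, hgN⟩ := pres_conj (sympBilin m F) (sympBilin_nondeg m) (sympBilin_isAlt m)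
      _ _ hNa hNb hsa hsb id (fun x => rfl) ta tb hPa hPb
    exact sp_conj_of_equiv a b g hg hgN

/-- Alternating type forces even rank. -/
theorem sp_even_rank_of_alt {F : Type*} [Field F] [Finite F] [CharP F 2] {m : ℕ}
    (a : ↥(Matrix.symplecticGroup (Fin m) F))
    (ha : (a : Matrix (Fin m ⊕ Fin m) (Fin m ⊕ Fin m) F) * (a : Matrix (Fin m ⊕ Fin m) (Fin m ⊕ Fin m) F) = 1)
    (hta : ∀ v, Cfsg.sympForm m F v ((a : Matrix (Fin m ⊕ Fin m) (Fin m ⊕ Fin m) F) *ᵥ v) = 0) :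
    Even ((a : Matrix (Fin m ⊕ Fin m) (Fin m ⊕ Fin m) F) - 1).rank := by
  have hsym : ∀ x y : Fin m ⊕ Fin m → F, sympBilin m F x y = sympBilin m F y x := by
    intro x y
    rw [sympBilin_apply, sympBilin_apply, sympForm_swap, CharTwo.neg_eq]
  have hnd := (sympBilin_nondeg (F := F) m).1
  have hNa := nOp_selfadj (a : Matrix (Fin m ⊕ Fin m) (Fin m ⊕ Fin m) F) a.2 ha
  obtain ⟨ka, ta, hPa⟩ := pres_alt (sympBilin m F) hsym hnd _ hNa ((nOp_alt_iff _).2 hta)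
  have h1 := pres_finrank _ _ _ Sum.swap_swap ta hPa
  rw [Fintype.card_sum, Fintype.card_fin] at h1
  have h2 : ((a : Matrix (Fin m ⊕ Fin m) (Fin m ⊕ Fin m) F) - 1).rank = ka + ka := h1
  rw [h2]
  exact ⟨ka, rfl⟩

end Cfsg.Agent.H42
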