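import Mathlib
import Cfsg.Prelude.Def_ClassicalGeometry
import Cfsg.Agent.H42.SpInvMain

set_option autoImplicit false

namespace Cfsg.Agent.H42

open Matrix

theorem sp_involution_classes {F : Type*} [Field F] [Fintype F] [CharP F 2] {m : ℕ} (hm : 2 ≤ m) (a b : ↥(Matrix.symplecticGroup (Fin m) F)) (ha : orderOf a = 2) (hb : orderOf b = 2) :
    IsConj a b ↔ ((((a : ↥(Matrix.symplecticGroup (Fin m) F)) : Matrix (Fin m ⊕ Fin m) (Fin m ⊕ Fin m) F) - 1).rank = (((b : ↥(Matrix.symplecticGroup (Fin m) F)) : Matrix (Fin m ⊕ Fin m) (Fin m ⊕ Fin m) F) - 1).rank ∧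
      (Even (((a : ↥(Matrix.symplecticGroup (Fin m) F)) : Matrix (Fin m ⊕ Fin m) (Fin m ⊕ Fin m) F) - 1).rank → Nat.card {v : Fin m ⊕ Fin m → F // Cfsg.sympForm m F v (Matrix.mulVec ((a : ↥(Matrix.symplecticGroup (Fin m) F)) : Matrix (Fin m ⊕ Fin m) (Fin m ⊕ Fin m) F) v) = 0} = Nat.card {v : Fin m ⊕ Fin m → F // Cfsg.sympForm m F v (Matrix.mulVec ((b : ↥(Matrix.symplecticGroup (Fin m) F)) : Matrix (Fin m ⊕ Fin m) (Fin m ⊕ Fin m) F) v) = 0})) := by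
  classical
  have ha2 : a * a = 1 := by
    have := pow_orderOf_eq_one a
    rw [ha, sq] at this
    exact this
  have hb2 : b * b = 1 := by
    have := pow_orderOf_eq_one b
    rw [hb, sq] at this
    exact this
  have haM : (a : Matrix (Fin m ⊕ Fin m) (Fin m ⊕ Fin m) F) * (a : Matrix (Fin m ⊕ Fin m) (Fin m ⊕ Fin m) F) = 1 :=
    congrArg Subtype.val ha2
  have hbM : (b : Matrix (Fin m ⊕ Fin m) (Fin m ⊕ Fin m) F) * (b : Matrix (Fin m ⊕ Fin m) (Fin m ⊕ Fin m) F) = 1 :=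
    congrArg Subtype.val hb2
  constructor
  · intro hconj
    obtain ⟨c, hc⟩ := isConj_iff.1 hconj
    have hcc : (c : Matrix (Fin m ⊕ Fin m) (Fin m ⊕ Fin m) F) * ((c⁻¹ : ↥(Matrix.symplecticGroup (Fin m) F)) : Matrix (Fin m ⊕ Fin m) (Fin m ⊕ Fin m) F) = 1 :=
      congrArg Subtype.val (mul_inv_cancel c)
    have hcc' : ((c⁻¹ : ↥(Matrix.symplecticGroup (Fin m) F)) : Matrix (Fin m ⊕ Fin m) (Fin m ⊕ Fin m) F) * (c : Matrix (Fin m ⊕ Fin m) (Fin m ⊕ Fin m) F) = 1 :=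
      congrArg Subtype.val (inv_mul_cancel c)
    have hbM' : (b : Matrix (Fin m ⊕ Fin m) (Fin m ⊕ Fin m) F) =
        (c : Matrix (Fin m ⊕ Fin m) (Fin m ⊕ Fin m) F) * (a : Matrix (Fin m ⊕ Fin m) (Fin m ⊕ Fin m) F) *
          ((c⁻¹ : ↥(Matrix.symplecticGroup (Fin m) F)) : Matrix (Fin m ⊕ Fin m) (Fin m ⊕ Fin m) F) :=
      (congrArg Subtype.val hc).symm
    have hbc : (b : Matrix (Fin m ⊕ Fin m) (Fin m ⊕ Fin m) F) * (c : Matrix (Fin m ⊕ Fin m) (Fin m ⊕ Fin m) F) =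
        (c : Matrix (Fin m ⊕ Fin m) (Fin m ⊕ Fin m) F) * (a : Matrix (Fin m ⊕ Fin m) (Fin m ⊕ Fin m) F) := by
      rw [hbM', Matrix.mul_assoc, hcc', Matrix.mul_one]
    have hrank : ((a : Matrix (Fin m ⊕ Fin m) (Fin m ⊕ Fin m) F) - 1).rank =
        ((b : Matrix (Fin m ⊕ Fin m) (Fin m ⊕ Fin m) F) - 1).rank := by
      have h1 : (b : Matrix (Fin m ⊕ Fin m) (Fin m ⊕ Fin m) F) - 1 =
          (c : Matrix (Fin m ⊕ Fin m) (Fin m ⊕ Fin m) F) * ((a : Matrix (Fin m ⊕ Fin m) (Fin m ⊕ Fin m) F) - 1) *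
            ((c⁻¹ : ↥(Matrix.symplecticGroup (Fin m) F)) : Matrix (Fin m ⊕ Fin m) (Fin m ⊕ Fin m) F) := by
        rw [Matrix.mul_sub, Matrix.sub_mul, Matrix.mul_one, hcc, ← hbM']
      rw [h1, Matrix.rank_mul_eq_left_of_isUnit_det _ _ (Matrix.isUnit_det_of_left_inverse hcc),
        Matrix.rank_mul_eq_right_of_isUnit_det _ _ (Matrix.isUnit_det_of_right_inverse hcc)]
    refine ⟨hrank, fun _ => ?_⟩
    let e : (Fin m ⊕ Fin m → F) ≃ (Fin m ⊕ Fin m → F) :=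
      { toFun := fun v => (c : Matrix (Fin m ⊕ Fin m) (Fin m ⊕ Fin m) F) *ᵥ v
        invFun := fun v => ((c⁻¹ : ↥(Matrix.symplecticGroup (Fin m) F)) : Matrix (Fin m ⊕ Fin m) (Fin m ⊕ Fin m) F) *ᵥ v
        left_inv := fun v => by
          change _ *ᵥ (_ *ᵥ v) = v
          rw [Matrix.mulVec_mulVec, hcc', Matrix.one_mulVec]
        right_inv := fun v => by
          change _ *ᵥ (_ *ᵥ v) = v
          rw [Matrix.mulVec_mulVec, hcc, Matrix.one_mulVec] }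
    apply Nat.card_congr
    refine e.subtypeEquiv (fun v => ?_)
    change _ ↔ Cfsg.sympForm m F ((c : Matrix (Fin m ⊕ Fin m) (Fin m ⊕ Fin m) F) *ᵥ v)
      ((b : Matrix (Fin m ⊕ Fin m) (Fin m ⊕ Fin m) F) *ᵥ ((c : Matrix (Fin m ⊕ Fin m) (Fin m ⊕ Fin m) F) *ᵥ v)) = 0
    rw [Matrix.mulVec_mulVec, hbc, ← Matrix.mulVec_mulVec,
      (Cfsg.Agent.H17.mem_symplecticGroup_iff_form m _).1 c.2]
  · rintro ⟨hrank, hcard⟩
    by_cases hta : ∀ v, Cfsg.sympForm m F v ((a : Matrix (Fin m ⊕ Fin m) (Fin m ⊕ Fin m) F) *ᵥ v) = 0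
    · by_cases htb : ∀ v, Cfsg.sympForm m F v ((b : Matrix (Fin m ⊕ Fin m) (Fin m ⊕ Fin m) F) *ᵥ v) = 0
      · exact Cfsg.Agent.H42.sp_conj_of_type a b haM hbM hrank ⟨fun _ => htb, fun _ => hta⟩
      · exfalso
        have h1 := hcard (Cfsg.Agent.H42.sp_even_rank_of_alt a haM hta)
        have h2 : Nat.card {v : Fin m ⊕ Fin m → F // Cfsg.sympForm m F v (Matrix.mulVec (a : Matrix (Fin m ⊕ Fin m) (Fin m ⊕ Fin m) F) v) = 0} =
            Nat.card (Fin m ⊕ Fin m → F) := Nat.card_congr (Equiv.subtypeUnivEquiv hta)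
        push Not at htb
        obtain ⟨v, hv⟩ := htb
        have h3 : Nat.card {v : Fin m ⊕ Fin m → F // Cfsg.sympForm m F v (Matrix.mulVec (b : Matrix (Fin m ⊕ Fin m) (Fin m ⊕ Fin m) F) v) = 0} <
            Nat.card (Fin m ⊕ Fin m → F) := Finite.card_subtype_lt hv
        omega
    · by_cases htb : ∀ v, Cfsg.sympForm m F v ((b : Matrix (Fin m ⊕ Fin m) (Fin m ⊕ Fin m) F) *ᵥ v) = 0
      · exfalso
        have h0 := Cfsg.Agent.H42.sp_even_rank_of_alt b hbM htb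
        rw [← hrank] at h0
        have h1 := hcard h0
        have h2 : Nat.card {v : Fin m ⊕ Fin m → F // Cfsg.sympForm m F v (Matrix.mulVec (b : Matrix (Fin m ⊕ Fin m) (Fin m ⊕ Fin m) F) v) = 0} =
            Nat.card (Fin m ⊕ Fin m → F) := Nat.card_congr (Equiv.subtypeUnivEquiv htb)
        push Not at hta
        obtain ⟨v, hv⟩ := hta
        have h3 : Nat.card {v : Fin m ⊕ Fin m → F // Cfsg.sympForm m F v (Matrix.mulVec (a : Matrix (Fin m ⊕ Fin m) (Fin m ⊕ Fin m) F) v) = 0} <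
            Nat.card (Fin m ⊕ Fin m → F) := Finite.card_subtype_lt hv
        omega
      · exact Cfsg.Agent.H42.sp_conj_of_type a b haM hbM hrank
          ⟨fun h => absurd h hta, fun h => absurd h htb⟩


end Cfsg.Agent.H42
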