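import Mathlib

set_option autoImplicit false

namespace Cfsg.Agent.H42

open Module

/-- `Basis.sumExtend` extends the given family. -/
theorem sumExtend_inl {K V ι : Type*} [DivisionRing K] [AddCommGroup V] [Module K V] {v : ι → V}
    (hs : LinearIndependent K v) (i : ι) : Basis.sumExtend hs (Sum.inl i) = v i := by
  classical
  unfold Basis.sumExtend
  erw [Basis.reindex_apply, Equiv.symm_symm, Basis.extend_apply_self]
  rfl

/-- A square-zero endomorphism has an adapted basis. -/
theorem exists_adapted_basis {F V : Type*} [Field F] [AddCommGroup V] [Module F V]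
    [FiniteDimensional F V] (N : V →ₗ[F] V) (hN : N ∘ₗ N = 0) (ℓ k : ℕ)
    (hℓ : Module.finrank F (LinearMap.range N) = ℓ) (hk : Module.finrank F V = ℓ + (ℓ + k)) :
    ∃ b : Basis (Fin ℓ ⊕ (Fin ℓ ⊕ Fin k)) F V,
      (∀ i, N (b (Sum.inl i)) = b (Sum.inr (Sum.inl i))) ∧ (∀ j, N (b (Sum.inr j)) = 0) := by
  classical
  let ρ : Basis (Fin ℓ) F (LinearMap.range N) := Module.finBasisOfFinrankEq F _ hℓ
  have hpre : ∀ i, ∃ v, N v = (ρ i : V) := fun i => (ρ i).2
  choose e he using hpre
  have hRK : ∀ x ∈ LinearMap.range N, x ∈ LinearMap.ker N := by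
    rintro x ⟨y, rfl⟩
    exact LinearMap.congr_fun hN y
  let r' : Fin ℓ → LinearMap.ker N := fun i => ⟨ρ i, hRK _ (ρ i).2⟩
  have hρind : LinearIndependent F ((LinearMap.range N).subtype ∘ ρ) :=
    ρ.linearIndependent.map' _ (Submodule.ker_subtype _)
  have hr' : LinearIndependent F r' := by
    apply LinearIndependent.of_comp (LinearMap.ker N).subtype
    exact hρind
  let bK0 := Basis.sumExtend hr'
  have hfinK : Module.finrank F (LinearMap.ker N) = ℓ + k := by
    have h1 := LinearMap.finrank_range_add_finrank_ker N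
    omega
  have : Finite (Fin ℓ ⊕ ↥(Basis.sumExtendIndex hr')) := Module.Finite.finite_basis bK0
  have : Finite ↥(Basis.sumExtendIndex hr') :=
    Finite.of_injective (Sum.inr : _ → Fin ℓ ⊕ ↥(Basis.sumExtendIndex hr')) Sum.inr_injective
  have hcardX : Nat.card ↥(Basis.sumExtendIndex hr') = k := by
    have h1 := Module.finrank_eq_nat_card_basis bK0
    rw [hfinK, Nat.card_sum, Nat.card_fin] at h1
    omega
  let εX : ↥(Basis.sumExtendIndex hr') ≃ Fin k := Finite.equivFinOfCardEq hcardX
  let bK : Basis (Fin ℓ ⊕ Fin k) F (LinearMap.ker N) :=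
    bK0.reindex (Equiv.sumCongr (Equiv.refl _) εX)
  have hbK : ∀ i, bK (Sum.inl i) = r' i := by
    intro i
    show bK0.reindex (Equiv.sumCongr (Equiv.refl _) εX) (Sum.inl i) = r' i
    rw [Basis.reindex_apply]
    exact sumExtend_inl hr' i
  let f : Fin ℓ ⊕ (Fin ℓ ⊕ Fin k) → V := Sum.elim e (fun j => (bK j : V))
  have hf : LinearIndependent F f := by
    rw [linearIndependent_sum]
    refine ⟨?_, ?_, ?_⟩
    · apply LinearIndependent.of_comp N
      have : N ∘ (f ∘ Sum.inl) = (LinearMap.range N).subtype ∘ ρ := by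
        funext i
        exact he i
      rw [this]
      exact hρind
    · exact bK.linearIndependent.map' (LinearMap.ker N).subtype (Submodule.ker_subtype _)
    · rw [Submodule.disjoint_def]
      intro x hx1 hx2
      have hxK : x ∈ LinearMap.ker N := by
        have : Submodule.span F (Set.range (f ∘ Sum.inr)) ≤ LinearMap.ker N := by
          rw [Submodule.span_le]
          rintro _ ⟨j, rfl⟩
          exact (bK j).2
        exact this hx2
      rw [Submodule.mem_span_range_iff_exists_fun] at hx1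
      obtain ⟨c, rfl⟩ := hx1
      have h1 : ∑ i, c i • ((LinearMap.range N).subtype ∘ ρ) i = 0 := by
        have h2 : N (∑ i, c i • (f ∘ Sum.inl) i) = 0 := hxK
        rw [map_sum] at h2
        rw [← h2]
        apply Finset.sum_congr rfl
        intro i _
        rw [map_smul]
        congr 1
        exact (he i).symm
      have h3 := Fintype.linearIndependent_iff.mp hρind c h1
      simp [h3]
  have hcard : Fintype.card (Fin ℓ ⊕ (Fin ℓ ⊕ Fin k)) = Module.finrank F V := by
    simp [hk]
  let b : Basis (Fin ℓ ⊕ (Fin ℓ ⊕ Fin k)) F V := basisOfLinearIndependentOfCardEqFinrank' f hf hcard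
  have hb : ∀ j, b j = f j := fun j =>
    congrFun (coe_basisOfLinearIndependentOfCardEqFinrank' f hf hcard) j
  refine ⟨b, ?_, ?_⟩
  · intro i
    rw [hb, hb]
    show N (e i) = (bK (Sum.inl i) : V)
    rw [he i, hbK i]
  · intro j
    rw [hb]
    exact (bK j).2

/-- Two square-zero endomorphisms of the same rank are conjugate by a map of determinant one,
provided every element of the field is a square and the maps are non-zero. -/
theorem exists_conj_det_one {F V : Type*} [Field F] [AddCommGroup V] [Module F V]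
    [FiniteDimensional F V] (hsq : ∀ d : F, ∃ e : F, e * e = d)
    (N M : V →ₗ[F] V) (hN : N ∘ₗ N = 0) (hM : M ∘ₗ M = 0)
    (hrank : Module.finrank F (LinearMap.range N) = Module.finrank F (LinearMap.range M))
    (hN0 : N ≠ 0) :
    ∃ g : V →ₗ[F] V, LinearMap.det g = 1 ∧ g ∘ₗ N = M ∘ₗ g := by
  classical
  set ℓ := Module.finrank F (LinearMap.range N) with hℓ
  have hRK : LinearMap.range N ≤ LinearMap.ker N := by
    rintro x ⟨y, rfl⟩
    exact LinearMap.congr_fun hN y
  have h2ℓ : ℓ + ℓ ≤ Module.finrank F V := by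
    have h1 := LinearMap.finrank_range_add_finrank_ker N
    have h2 := Submodule.finrank_mono hRK
    omega
  obtain ⟨k, hk⟩ : ∃ k, Module.finrank F V = ℓ + (ℓ + k) :=
    ⟨Module.finrank F V - (ℓ + ℓ), by omega⟩
  obtain ⟨bN, hbN1, hbN2⟩ := exists_adapted_basis N hN ℓ k rfl hk
  obtain ⟨bM, hbM1, hbM2⟩ := exists_adapted_basis M hM ℓ k hrank.symm hk
  let g0 : V ≃ₗ[F] V := bN.equiv bM (Equiv.refl _)
  have hg0 : ∀ i, g0 (bN i) = bM i := fun i => by
    show bN.equiv bM (Equiv.refl _) (bN i) = bM i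
    rw [Basis.equiv_apply]; rfl
  have hg0N : (g0 : V →ₗ[F] V) ∘ₗ N = M ∘ₗ (g0 : V →ₗ[F] V) := by
    apply bN.ext
    intro i
    simp only [LinearMap.comp_apply, LinearEquiv.coe_coe]
    rcases i with i | j
    · rw [hbN1, hg0, hg0, hbM1]
    · rw [hbN2, hg0, hbM2, map_zero]
  have hℓpos : 0 < ℓ := by
    rw [hℓ, Module.finrank_pos_iff_exists_ne_zero]
    by_contra hcon
    push Not at hcon
    apply hN0
    ext x
    have := hcon ⟨N x, LinearMap.mem_range_self N x⟩
    simpa using congrArg Subtype.val this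
  let i₀ : Fin ℓ := ⟨0, hℓpos⟩
  have hd : LinearMap.det (g0 : V →ₗ[F] V) ≠ 0 := (LinearEquiv.isUnit_det' g0).ne_zero
  obtain ⟨e, he⟩ := hsq (LinearMap.det (g0 : V →ₗ[F] V))⁻¹
  let c : Fin ℓ ⊕ (Fin ℓ ⊕ Fin k) → F :=
    Sum.elim (fun i => if i = i₀ then e else 1) (Sum.elim (fun i => if i = i₀ then e else 1) (fun _ => 1))
  let h : V →ₗ[F] V := bN.constr F (fun idx => c idx • bN idx)
  have hh : ∀ idx, h (bN idx) = c idx • bN idx := fun idx => Basis.constr_basis bN F _ idx
  have hhN : h ∘ₗ N = N ∘ₗ h := by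
    apply bN.ext
    intro i
    simp only [LinearMap.comp_apply]
    rcases i with i | j
    · rw [hbN1, hh, hh, map_smul, hbN1]
      rfl
    · rw [hbN2, hh, map_smul, hbN2, map_zero, smul_zero]
  have hdeth : LinearMap.det h = e * e := by
    rw [← LinearMap.det_toMatrix bN]
    have hmat : LinearMap.toMatrix bN bN h = Matrix.diagonal c := by
      ext i j
      rw [LinearMap.toMatrix_apply, hh, map_smul, Finsupp.smul_apply, Basis.repr_self_apply,
        Matrix.diagonal_apply]
      by_cases hij : i = j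
      · subst hij; simp
      · have hji : ¬ j = i := fun h => hij h.symm
        simp [hij, hji]
    rw [hmat, Matrix.det_diagonal, Fintype.prod_sum_type, Fintype.prod_sum_type]
    simp [c]
  refine ⟨(g0 : V →ₗ[F] V) ∘ₗ h, ?_, ?_⟩
  · rw [LinearMap.det_comp, hdeth, he, mul_inv_cancel₀ hd]
  · rw [LinearMap.comp_assoc, hhN, ← LinearMap.comp_assoc, hg0N, LinearMap.comp_assoc]

end Cfsg.Agent.H42
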